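import Mathlib
import Cfsg.Agent.Lib.PGroup.Extraspecial

/-!
Solvable monomial groups over the field with three elements generated by three-cycles.
-/

set_option autoImplicit false

namespace CfsgLib.Cub3

open Subgroup Equiv Equiv.Perm
open scoped Pointwise commutatorElement

variable {G : Type*} [Group G]

theorem eq_top_of_conj {b : G} (gen : normalClosure {b} = ⊤) {H : Subgroup G}
    (h : ∀ g, g * b * g⁻¹ ∈ H) : H = ⊤ := by
  rw [eq_top_iff, ← gen, normalClosure, closure_le]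
  intro x hx
  obtain ⟨a, rfl, hc⟩ := Group.mem_conjugatesOfSet_iff.1 hx
  obtain ⟨g, rfl⟩ := isConj_iff.1 hc
  exact h g

/-- the two possible structures -/
def Concl (R : Subgroup G) : Prop :=
  (Nat.card R = 4 ∧ ∀ x ∈ R, x ^ 2 = 1) ∨ (Cfsg.IsExtraspecial 2 R ∧ Nat.card R = 32 ∧
    ∃ K ≤ R, Nat.card K = 8 ∧ ∀ x ∈ K, x ^ 2 = 1)

theorem dec1 : ∀ σ : Perm (Fin 4), sign σ = 1 → σ ^ 32 = 1 → σ * σ = 1 ∧
    ∀ s : Fin 4 → (ZMod 3)ˣ, ∏ i, s i = 1 → ∀ i j, s (σ i) * s i = s (σ j) * s j := by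
  decide +kernel

theorem dec2 : ∀ i j : Fin 4, ∃ τ : Perm (Fin 4), sign τ = 1 ∧ (τ ^ 3) i = j := by
  decide +kernel

theorem dec3 : ∀ i j : Fin 4, i ≠ j → ∃ s : Fin 4 → (ZMod 3)ˣ, ∏ i, s i = 1 ∧ s i ≠ s j := by
  decide +kernel

theorem dec4 : ∀ u : (ZMod 3)ˣ, u * u = 1 ∧ (u = 1 ∨ u = -1) := by decide

/-- a faithful transitive monomial action -/
structure Mono {m : ℕ} (π : G →* Perm (Fin m)) (ε : G → Fin m → (ZMod 3)ˣ) : Prop where
  coc : ∀ g h l, ε (g * h) l = ε g (π h l) * ε h l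
  faith : ∀ g, π g = 1 → (∀ l, ε g l = 1) → g = 1
  trans : ∀ l l', ∃ g, π g l = l'

namespace Mono

variable {m : ℕ} {π : G →* Perm (Fin m)} {ε : G → Fin m → (ZMod 3)ˣ} (h : Mono π ε)
include h

theorem one (l : Fin m) : ε 1 l = 1 := by simpa using h.coc 1 1 l

theorem ker_mul {g k : G} (hk : π k = 1) (l : Fin m) : ε (g * k) l = ε g l * ε k l := by
  rw [h.coc, hk]; rfl

theorem conj {k : G} (hk : π k = 1) (g : G) (l : Fin m) : ε (g * k * g⁻¹) (π g l) = ε k l := by
  have h1 := h.coc (g * k * g⁻¹) g l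
  rw [inv_mul_cancel_right, h.ker_mul hk, mul_comm] at h1
  exact (mul_right_cancel h1).symm

theorem sq {k : G} (hk : π k = 1) : k ^ 2 = 1 :=
  h.faith _ (by rw [map_pow, hk, one_pow]) fun l => by rw [pow_two, h.ker_mul hk, (dec4 _).1]

theorem ext {k k' : G} (hk : π k = 1) (hk' : π k' = 1) (e : ∀ l, ε k l = ε k' l) : k = k' := by
  have h1 := h.faith (k * k') (by rw [map_mul, hk, hk', one_mul]) fun l => by
    rw [h.ker_mul hk', e, (dec4 _).1]
  have h2 := h.sq hk'
  rw [pow_two, ← h1] at h2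
  exact (mul_right_cancel h2).symm

theorem det {b : G} (b3 : b ^ 3 = 1) (gen : normalClosure {b} = ⊤) (g : G) : ∏ l, ε g l = 1 := by
  let d : G →* (ZMod 3)ˣ := MonoidHom.mk' (fun g => ∏ l, ε g l) fun g g' => by
    simp only [h.coc, Finset.prod_mul_distrib]
    rw [Equiv.prod_comp (π g') (ε g)]
  have hb : d b = 1 := by
    have := congrArg d b3
    rwa [map_pow, map_one, pow_three, (dec4 _).1, mul_one] at this
  have : d.ker = ⊤ := eq_top_of_conj gen fun g => by simp [hb]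
  exact (this ▸ mem_top g : g ∈ d.ker)

theorem range_eq {b : G} (gen : normalClosure {b} = ⊤) (h3 : IsThreeCycle (π b)) :
    π.range = alternatingGroup (Fin m) := by
  refine le_antisymm ?_ (alternatingGroup_le_of_isPreprimitive_of_isThreeCycle_mem ?_ h3 ⟨b, rfl⟩)
  · have : (alternatingGroup (Fin m)).comap π = ⊤ := eq_top_of_conj gen fun g => by
      simp [h3.sign]
    rintro _ ⟨g, rfl⟩
    exact (this ▸ mem_top g : g ∈ (alternatingGroup (Fin m)).comap π)
  have : MulAction.IsPretransitive π.range (Fin m) := ⟨fun l l' => by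
    obtain ⟨g, hg⟩ := h.trans l l'
    exact ⟨⟨π g, g, rfl⟩, hg⟩⟩
  refine ⟨fun {B} hB => ?_⟩
  rw [MulAction.IsTrivialBlock, or_iff_not_imp_left, Set.not_subsingleton_iff]
  rintro ⟨x, hx, y, hy, hxy⟩
  have h1 : (MulAction.stabilizer (Perm (Fin m)) B).comap π = ⊤ := by
    refine eq_top_of_conj gen fun g => ?_
    rcases hB.smul_eq_or_disjoint ⟨π (g * b * g⁻¹), _, rfl⟩ with h2 | h2
    · exact h2
    exfalso
    have h4 : IsThreeCycle (π (g * b * g⁻¹)) := by
      rw [map_mul, map_mul, map_inv, IsThreeCycle, cycleType_conj]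
      exact h3
    replace h2 : _root_.Disjoint (π (g * b * g⁻¹) • B) B := h2
    generalize π (g * b * g⁻¹) = c at h2 h4
    have h5 : ∀ u ∈ B, ∀ v ∈ B, c u ≠ v := fun u hu v hv e =>
      Set.disjoint_left.1 h2 ⟨u, hu, e⟩ hv
    have h6 : ({x, y, c x, c y} : Finset (Fin m)) ⊆ c.support := by
      intro t ht
      simp only [Finset.mem_insert, Finset.mem_singleton] at ht
      rcases ht with rfl | rfl | rfl | rfl
      · exact mem_support.2 (h5 _ hx _ hx)
      · exact mem_support.2 (h5 _ hy _ hy)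
      · exact apply_mem_support.2 (mem_support.2 (h5 _ hx _ hx))
      · exact apply_mem_support.2 (mem_support.2 (h5 _ hy _ hy))
    have h7 := Finset.card_le_card h6
    rw [h4.card_support, Finset.card_insert_of_notMem (by
        simp [hxy, (h5 _ hx _ hx).symm, (h5 _ hy _ hx).symm]),
      Finset.card_insert_of_notMem (by simp [(h5 _ hx _ hy).symm, (h5 _ hy _ hy).symm]),
      Finset.card_pair (by simpa using hxy)] at h7
    omega
  refine Set.eq_univ_of_forall fun l => ?_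
  obtain ⟨g, rfl⟩ := h.trans x l
  have h2 : π g • B = B := (h1 ▸ mem_top g : g ∈ (MulAction.stabilizer (Perm (Fin m)) B).comap π)
  rw [← h2]
  exact ⟨x, hx, rfl⟩

theorem exists_eta [Finite G] {b : G} (b3 : b ^ 3 = 1) (gen : normalClosure {b} = ⊤)
    (l0 : Fin m) : Nat.card π.ker ∣ 2 ^ (m - 1) ∧ (Nat.card π.ker = 2 ^ (m - 1) →
      ∀ s : Fin m → (ZMod 3)ˣ, ∏ l, s l = 1 → ∃ k, π k = 1 ∧ ∀ l, ε k l = s l) := by
  let η : π.ker →* (Fin m → (ZMod 3)ˣ) := MonoidHom.mk' (fun k => ε k) fun k k' =>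
    funext fun l => h.ker_mul k'.2 l
  have hη : Function.Injective η := fun k k' e => Subtype.ext (h.ext k.2 k'.2 (congrFun e))
  let P : (Fin m → (ZMod 3)ˣ) →* (ZMod 3)ˣ := MonoidHom.mk' (fun s => ∏ l, s l) fun s s' =>
    Finset.prod_mul_distrib
  have hP : P.range = ⊤ := eq_top_iff.2 fun u _ => ⟨Pi.mulSingle l0 u, by simp [P]⟩
  have hc : Nat.card (ZMod 3)ˣ = 2 := by rw [Nat.card_eq_fintype_card]; decide
  have h1 := P.ker.card_mul_index
  rw [index_ker, hP, card_top, hc, Nat.card_fun, hc, Nat.card_eq_fintype_card (α := Fin m),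
    Fintype.card_fin] at h1
  have h2 : Nat.card P.ker = 2 ^ (m - 1) := by
    have : 2 ^ m = 2 ^ (m - 1) * 2 := by
      rw [← pow_succ, Nat.sub_add_cancel l0.pos]
    omega
  have h3 : η.range ≤ P.ker := by
    rintro _ ⟨k, rfl⟩
    exact h.det b3 gen k
  have h4 : Nat.card η.range = Nat.card π.ker := (Nat.card_congr (η.ofInjective hη).toEquiv).symm
  refine ⟨by rw [← h4, ← h2]; exact card_dvd_of_le h3, fun h5 s hs => ?_⟩
  have h6 : η.range = P.ker := eq_of_le_of_card_ge h3 (by rw [h4, h5, h2])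
  obtain ⟨k, hk⟩ : s ∈ η.range := h6 ▸ hs
  exact ⟨k, k.2, congrFun hk⟩

end Mono

theorem Mono.four [Finite G] {π : G →* Perm (Fin 4)} {ε : G → Fin 4 → (ZMod 3)ˣ} (h : Mono π ε)
    {R : Subgroup G} [R.Normal] (idx : R.index = 3) (hR : Nat.card R = 32) (hK : π.ker ≤ R)
    (hr : π.range = alternatingGroup (Fin 4)) (hd : ∀ g, ∏ l, ε g l = 1)
    (hs : ∀ s : Fin 4 → (ZMod 3)ˣ, ∏ l, s l = 1 → ∃ k, π k = 1 ∧ ∀ l, ε k l = s l) :
    Cfsg.IsExtraspecial 2 R := by
  obtain ⟨z, hz, hz'⟩ := hs (fun _ => -1) (by decide)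
  have hz1 : z ≠ 1 := fun e => by
    have := hz' 0
    rw [e, h.one] at this
    exact absurd this (by decide)
  have hsign : ∀ g, sign (π g) = 1 := fun g => (hr ▸ ⟨g, rfl⟩ : π g ∈ alternatingGroup (Fin 4))
  have hconst : ∀ k, π k = 1 → (∀ i j, ε k i = ε k j) → k ∈ zpowers z := by
    intro k hk e
    rcases (dec4 (ε k 0)).2 with h1 | h1
    · rw [h.faith k hk fun l => by rw [e l 0, h1]]; exact one_mem _
    · rw [h.ext hk hz fun l => by rw [e l 0, h1, hz']]; exact mem_zpowers z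
  have hzc : ∀ g, g * z = z * g := fun g => by
    rw [← mul_inv_eq_iff_eq_mul]
    refine h.ext (by simp [hz]) hz fun l => ?_
    obtain ⟨l, rfl⟩ := (π g).surjective l
    rw [h.conj hz, hz', hz']
  have hZ : R ⊓ centralizer (R : Set G) = zpowers z := by
    refine le_antisymm (fun c hc => ?_) (zpowers_le.2 ⟨hK hz, fun g _ => hzc g⟩)
    have h1 : π c = 1 := by
      ext l
      congr 1
      by_contra hl
      obtain ⟨s, hs1, hs2⟩ := dec3 _ _ hl
      obtain ⟨k, hk, hk'⟩ := hs s hs1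
      have h2 := h.coc k c l
      rw [hc.2 k (hK hk), h.ker_mul hk, mul_comm, hk', hk'] at h2
      exact hs2 (mul_right_cancel h2).symm
    refine hconst c h1 fun i j => ?_
    obtain ⟨τ, hτ, rfl⟩ := dec2 i j
    obtain ⟨g, rfl⟩ : τ ∈ π.range := hr ▸ hτ
    have h2 := h.conj h1 (g ^ 3) i
    rw [hc.2 _ (idx ▸ R.pow_index_mem g), mul_inv_cancel_right, map_pow] at h2
    exact h2.symm
  have hsq : ∀ r ∈ R, r * r ∈ zpowers z := by
    intro r hr
    have h1 : r ^ 32 = 1 := by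
      rw [← hR]; exact congrArg Subtype.val (pow_card_eq_one' (x := (⟨r, hr⟩ : R)))
    obtain ⟨h2, h3⟩ := dec1 (π r) (hsign r) (by rw [← map_pow, h1, map_one])
    exact hconst _ (by rw [map_mul, h2]) fun i j => by rw [h.coc, h.coc, h3 _ (hd r)]
  have hz2 : Nat.card (zpowers z) = 2 := by
    rw [Nat.card_zpowers, orderOf_eq_prime (h.sq hz) hz1]
  refine PGroup.isExtraspecial_of_ambient (IsPGroup.of_card (n := 5) hR) (by rw [hZ, hz2])
    (le_trans (commutator_le.2 fun x hx y hy => ?_) (hZ.ge.trans inf_le_right)) fun hc => ?_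
  · have e : ⁅x, y⁆ = x * x * ((x⁻¹ * y) * (x⁻¹ * y)) * (y⁻¹ * y⁻¹) := by
      rw [commutatorElement_def]; group
    rw [e]
    exact mul_mem (mul_mem (hsq x hx) (hsq _ (mul_mem (inv_mem hx) hy))) (hsq _ (inv_mem hy))
  · have h1 : R ≤ zpowers z := hZ ▸ le_inf le_rfl (le_centralizer_iff_isMulCommutative.2 hc)
    have := card_le_of_le h1
    omega

theorem Mono.concl [Finite G] [Group.IsSolvable G] {m : ℕ} {π : G →* Perm (Fin m)}
    {ε : G → Fin m → (ZMod 3)ˣ} (h : Mono π ε) {R : Subgroup G} [R.Normal] (idx : R.index = 3)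
    {b : G} (b3 : b ^ 3 = 1) (gen : normalClosure {b} = ⊤) {a : G} {l1 l2 l3 : Fin m}
    (n12 : l1 ≠ l2) (n13 : l1 ≠ l3) (n23 : l2 ≠ l3) (p1 : π b l1 = l2) (p2 : π b l2 = l3)
    (p3 : π b l3 = l1) (p4 : ∀ l, l ≠ l1 → l ≠ l2 → l ≠ l3 → π b l = l) (ha : π a = 1)
    (e1 : ε a l1 = 1) (e2 : ε a l2 = -1) (e4 : ∀ l, l ≠ l1 → l ≠ l2 → l ≠ l3 → ε a l = 1) :
    Concl R := by
  classical
  have hsup : (π b).support = {l1, l2, l3} := by
    ext l
    simp only [mem_support, Finset.mem_insert, Finset.mem_singleton]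
    refine ⟨fun hl => ?_, ?_⟩
    · by_contra! hn
      exact hl (p4 l hn.1 hn.2.1 hn.2.2)
    · rintro (rfl | rfl | rfl)
      · rw [p1]; exact n12.symm
      · rw [p2]; exact n23.symm
      · rw [p3]; exact n13
  have hc3 : ({l1, l2, l3} : Finset (Fin m)).card = 3 := Finset.card_eq_three.2
    ⟨_, _, _, n12, n13, n23, rfl⟩
  have h3 : IsThreeCycle (π b) := card_support_eq_three_iff.1 (by rw [hsup, hc3])
  have hr := h.range_eq gen h3
  obtain ⟨hd, hs⟩ := h.exists_eta b3 gen l1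
  have hK : π.ker ≤ R := fun k hk => by
    have := R.pow_index_mem k
    rwa [idx, pow_succ, h.sq hk, one_mul] at this
  have hm3 : 3 ≤ m := by simpa [hc3] using Finset.card_le_univ ({l1, l2, l3} : Finset (Fin m))
  have hm4 : m ≤ 4 := by
    by_contra! h5
    have h1 : Group.IsSolvable (alternatingGroup (Fin m)) :=
      hr ▸ solvable_of_surjective π.rangeRestrict_surjective
    have h2 := commutator_alternatingGroup_eq_top (α := Fin m) (by rw [Nat.card_fin]; omega)
    have : Nontrivial (alternatingGroup (Fin m)) :=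
      ⟨⟨π b, h3.mem_alternatingGroup⟩, 1, fun e => h3.ne_one (congrArg Subtype.val e)⟩
    exact (IsSolvable.commutator_lt_top_of_nontrivial _).ne h2
  have hcard : Nat.card π.ker * Nat.card (alternatingGroup (Fin m)) = Nat.card R * 3 := by
    rw [← hr, ← index_ker, card_mul_index, ← idx, card_mul_index]
  have ha' : π (b * a * b⁻¹) = 1 := by simp [ha]
  have f2 : ε (b * a * b⁻¹) l2 = 1 := by rw [← p1, h.conj ha, e1]
  have f3 : ε (b * a * b⁻¹) l3 = -1 := by rw [← p2, h.conj ha, e2]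
  have f4 : ∀ l, l ≠ l1 → l ≠ l2 → l ≠ l3 → ε (b * a * b⁻¹) l = 1 := fun l i j k => by
    rw [← p4 l i j k, h.conj ha, e4 l i j k]
  generalize b * a * b⁻¹ = a' at ha' f2 f3 f4
  have hne : ∀ {x y : G} (l : Fin m), ε x l ≠ ε y l → x ≠ y := fun l e e' => e (by rw [e'])
  have hle : ∀ s : Finset G, (∀ x ∈ s, π x = 1) → s.card ≤ Nat.card π.ker := fun s hs => by
    rw [← Nat.card_eq_finsetCard]
    exact Nat.card_mono (Set.toFinite _) (s := (s : Set G)) (t := (π.ker : Set G)) hs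
  have m1 : (1 : (ZMod 3)ˣ) ≠ -1 := by decide
  have d1 : (1 : G) ≠ a := hne l2 (by rw [h.one, e2]; exact m1)
  have d2 : (1 : G) ≠ a' := hne l3 (by rw [h.one, f3]; exact m1)
  have d3 : a ≠ a' := hne l2 (by rw [f2, e2]; exact m1.symm)
  have hA : ∀ n : ℕ, 2 ≤ n → 2 * Nat.card (alternatingGroup (Fin n)) = n.factorial := fun n hn => by
    have : Nontrivial (Fin n) := Fin.nontrivial_iff_two_le.2 hn
    rw [two_mul_nat_card_alternatingGroup, Nat.card_perm, Nat.card_eq_fintype_card, Fintype.card_fin]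
  have hA' := hA m (by omega)
  obtain rfl | rfl : m = 3 ∨ m = 4 := by omega
  · have h1 := hle {1, a, a'} (by simp [ha, ha'])
    rw [Finset.card_eq_three.2 ⟨_, _, _, d1, d2, d3, rfl⟩] at h1
    have h2 : Nat.card π.ker = 4 := by
      have := Nat.le_of_dvd (by norm_num) hd
      interval_cases Nat.card π.ker <;> simp_all
    have h4 : Nat.card R = 4 := by
      rw [show Nat.factorial 3 = 6 from rfl] at hA'
      rw [show Nat.card (alternatingGroup (Fin 3)) = 3 by omega] at hcard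
      omega
    exact Or.inl ⟨h4, fun x hx => h.sq ((eq_of_le_of_card_ge hK (by omega)).ge hx)⟩
  · obtain ⟨l, hl⟩ : ∃ l : Fin 4, l ∉ ({l1, l2, l3} : Finset (Fin 4)) := by
      by_contra! hn
      have := Finset.card_le_card (s := Finset.univ) fun l _ => hn l
      simp [hc3] at this
    simp only [Finset.mem_insert, Finset.mem_singleton, not_or] at hl
    obtain ⟨g, hg⟩ := h.trans l2 l
    have g1 : ε (g * a * g⁻¹) l = -1 := by rw [← hg, h.conj ha, e2]
    have g2 := e4 l hl.1 hl.2.1 hl.2.2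
    have g3 := f4 l hl.1 hl.2.1 hl.2.2
    have h1 := hle {g * a * g⁻¹, a * a', 1, a, a'} (by simp [ha, ha'])
    rw [Finset.card_insert_of_notMem, Finset.card_insert_of_notMem,
      Finset.card_eq_three.2 ⟨_, _, _, d1, d2, d3, rfl⟩] at h1
    · have h2 : Nat.card π.ker = 8 := by
        have := Nat.le_of_dvd (by norm_num) hd
        interval_cases Nat.card π.ker <;> simp_all
      have h4 : Nat.card R = 32 := by
        rw [show Nat.factorial 4 = 24 from rfl] at hA'
        rw [show Nat.card (alternatingGroup (Fin 4)) = 12 by omega] at hcard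
        omega
      exact Or.inr ⟨h.four idx h4 hK hr (h.det b3 gen) (hs h2), h4, _, hK, h2, fun x hx => h.sq hx⟩
    · simp only [Finset.mem_insert, Finset.mem_singleton, not_or]
      exact ⟨hne l2 (by rw [h.ker_mul ha', e2, f2, h.one]; decide), by simpa using d2.symm,
        by simpa using d1.symm⟩
    · simp only [Finset.mem_insert, Finset.mem_singleton, not_or]
      exact ⟨hne l (by rw [h.ker_mul ha', g1, g2, g3]; decide), hne l (by rw [g1, h.one]; decide),
        hne l (by rw [g1, g2]; decide), hne l (by rw [g1, g3]; decide)⟩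

end CfsgLib.Cub3
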