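import Cfsg.Agent.Lib.Cub3.Rep
import Cfsg.Agent.Lib.Cub3.Mono
import Cfsg.Agent.Lib.HH.Reduce

/-!
The case of a noncentral abelian normal subgroup.
-/

set_option autoImplicit false

namespace CfsgLib.Cub3

open Module Subgroup

variable {G : Type*} [Group G] {W : Type*} [AddCommGroup W] [Module (ZMod 3) W]

/-- `a` is an involution in a four-group on which `b` acts nontrivially -/
structure Tri (b a : G) : Prop where
  ne : a ≠ 1
  sq : a * a = 1
  nm : a * (b * a * b⁻¹) * (b * (b * a * b⁻¹) * b⁻¹) = 1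

namespace Tri

variable {b a : G} (h : Tri b a)
include h

theorem conj : Tri b (b * a * b⁻¹) :=
  ⟨by simpa using h.ne, by rw [conj_mul, h.sq, mul_one, mul_inv_cancel], by
    rw [conj_mul, conj_mul, h.nm, mul_one, mul_inv_cancel]⟩

theorem not_comm : b * a * b⁻¹ ≠ a := fun e => h.ne (by
  have := h.nm
  rwa [e, e, h.sq, one_mul] at this)

theorem mul_eq : a * (b * a * b⁻¹) = b * (b * a * b⁻¹) * b⁻¹ :=
  (eq_inv_of_mul_eq_one_left h.nm).trans (inv_eq_of_mul_eq_one_left h.conj.conj.sq)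

theorem comm : a * (b * a * b⁻¹) = b * a * b⁻¹ * a := by
  have h1 := h.conj.conj.sq
  rw [← h.mul_eq] at h1
  rw [eq_inv_of_mul_eq_one_left h1, mul_inv_rev, inv_eq_of_mul_eq_one_left h.sq,
    inv_eq_of_mul_eq_one_left h.conj.sq]

theorem fg [Module.Finite (ZMod 3) W] {ρ : Representation (ZMod 3) G W}
    (inj : Function.Injective ρ) (b3 : b ^ 3 = 1)
    (rk : finrank (ZMod 3) (LinearMap.range (ρ b - 1)) ≤ 2) :
    ∃ e, FG (ρ a) (ρ (b * a * b⁻¹)) (ρ b) e := by
  have hbb : b * b * b = 1 := by rw [← b3, pow_three']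
  refine exists_fg ?_ ?_ ?_ ?_ ?_ ?_ (fun e => h.ne (inj (e.trans (map_one ρ).symm))) rk <;>
    simp only [← map_mul]
  · rw [h.sq, map_one]
  · rw [h.conj.sq, map_one]
  · rw [h.comm]
  · rw [inv_mul_cancel_right]
  · rw [mul_assoc b a, h.mul_eq]
    congr 1
    calc a * b = 1 * a * 1⁻¹ * b := by group
      _ = b * b * b * a * (b * b * b)⁻¹ * (b * b * b) * b := by rw [hbb]; group
      _ = b * b * b * a * b := by group
      _ = b * b * b * a * b * (b * b * b)⁻¹ := by rw [hbb]; group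
      _ = _ := by group
  · rw [hbb, map_one]

end Tri

/-- the standing hypotheses -/
structure Cub (ρ : Representation (ZMod 3) G W) (R : Subgroup G) (b q : G) : Prop where
  inj : Function.Injective ρ
  irr : ∀ U : Submodule (ZMod 3) W, (∀ g, ∀ v ∈ U, ρ g v ∈ U) → U = ⊥ ∨ U = ⊤
  cop : ¬ 3 ∣ Nat.card R
  b3 : b ^ 3 = 1
  gen : normalClosure {b} = ⊤
  dec : ∀ g, ∃ r ∈ R, ∃ i : ℕ, g = r * b ^ i
  rk : finrank (ZMod 3) (LinearMap.range (ρ b - 1)) ≤ 2
  tri : Tri b q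
  mem : q ∈ R

theorem rep_apply (ρ : Representation (ZMod 3) G W) (g h : G) (v : W) :
    ρ g (ρ h v) = ρ (g * h) v := by rw [map_mul, End.mul_apply]

theorem rep_ne_zero (ρ : Representation (ZMod 3) G W) (g : G) {v : W} (hv : v ≠ 0) : ρ g v ≠ 0 :=
  fun e => hv (by
    have := congrArg (ρ g⁻¹) e
    rwa [rep_apply, inv_mul_cancel, map_one, map_zero] at this)

namespace Cub

variable [Finite G] {ρ : Representation (ZMod 3) G W} {R : Subgroup G} {b q : G} (h : Cub ρ R b q)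
include h

theorem eq_one {x : G} (hx : x ∈ R) (h3 : x ^ 3 = 1) : x = 1 := by
  rcases (Nat.dvd_prime Nat.prime_three).1 (orderOf_dvd_of_pow_eq_one h3) with e | e
  · exact orderOf_eq_one_iff.1 e
  · exact absurd (e ▸ R.orderOf_dvd_natCard hx) h.cop

theorem idx [R.Normal] : R.index = 3 := by
  have h1 : (b : G ⧸ R) ≠ 1 := fun e => h.tri.not_comm (by
    rw [h.eq_one ((QuotientGroup.eq_one_iff b).1 e) h.b3]; group)
  have h2 : zpowers (b : G ⧸ R) = ⊤ := eq_top_iff.2 fun x _ => by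
    obtain ⟨g, rfl⟩ := QuotientGroup.mk_surjective x
    obtain ⟨r, hr, i, rfl⟩ := h.dec g
    rw [QuotientGroup.mk_mul, (QuotientGroup.eq_one_iff r).2 hr, one_mul, QuotientGroup.mk_pow]
    exact pow_mem (mem_zpowers _) i
  rw [index_eq_card, ← card_top, ← h2, Nat.card_zpowers, orderOf_eq_prime (p := 3) _ h1]
  rw [← QuotientGroup.mk_pow, h.b3, QuotientGroup.mk_one]

omit [Finite G] in
theorem central {N : Subgroup G} [N.Normal] (hN : ∀ n ∈ N, b * n * b⁻¹ = n) {n : G} (hn : n ∈ N)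
    (g : G) : n * g = g * n := by
  have : centralizer (N : Set G) = ⊤ := eq_top_of_conj h.gen fun g =>
    Normal.conj_mem (H := centralizer (N : Set G)) inferInstance b
      (fun n hn => (mul_inv_eq_iff_eq_mul.1 (hN n hn)).symm) g
  exact (this ▸ mem_top g : g ∈ centralizer (N : Set G)) n hn

theorem even_case [Group.IsSolvable G] [Module.Finite (ZMod 3) W] [R.Normal] {N : Subgroup G}
    [hN : N.Normal] (hc : ∀ x ∈ N, ∀ y ∈ N, x * y = y * x) {a : G} (ha : a ∈ N) (ht : Tri b a) :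
    Concl R := by
  obtain ⟨e, he⟩ := ht.fg h.inj h.b3 h.rk
  have ha' := hN.conj_mem a ha b
  let H : Subgroup G :=
    { carrier := {g | ∃ c : (ZMod 3)ˣ, ρ g e = (c : ZMod 3) • e}
      one_mem' := ⟨1, by simp⟩
      mul_mem' := by
        rintro x y ⟨c, hc⟩ ⟨d, hd⟩
        exact ⟨d * c, by rw [← rep_apply, hd, map_smul, hc, smul_smul, Units.val_mul]⟩
      inv_mem' := by
        rintro x ⟨c, hc⟩
        refine ⟨c⁻¹, ?_⟩
        have := congrArg (ρ x⁻¹) hc
        rw [rep_apply, inv_mul_cancel, map_one, End.one_apply, map_smul] at this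
        nth_rw 2 [this]
        rw [smul_smul, Units.inv_mul, one_smul] }
  have hH : ∀ {x y : G} {c : ZMod 3}, ρ x e = c • ρ y e → (y : G ⧸ H) = x := fun {x y c} hc => by
    have c0 : c ≠ 0 := fun e0 => rep_ne_zero ρ x he.ne (by rw [hc, e0, zero_smul])
    refine QuotientGroup.eq.2 ⟨Units.mk0 c c0, ?_⟩
    rw [← rep_apply, hc, map_smul, rep_apply, inv_mul_cancel, map_one]
    rfl
  have hNH : ∀ n ∈ N, n ∈ H := fun n hn => by
    obtain ⟨c, hc'⟩ := he.w1 (ρ n e) (by rw [rep_apply, hc a ha n hn, ← rep_apply, he.e1])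
      (by rw [rep_apply, hc _ ha' n hn, ← rep_apply, he.e2, map_neg])
    simpa using QuotientGroup.eq.1 (hH (x := n) (y := 1) (c := c) (by simpa using hc'))
  let φ := Finite.equivFin (G ⧸ H)
  let π : G →* Equiv.Perm (Fin (Nat.card (G ⧸ H))) :=
    φ.permCongrHom.toMonoidHom.comp (MulAction.toPermHom G (G ⧸ H))
  have hπ : ∀ g x : G, π g (φ x) = φ (g * x : G) := fun g x => by simp [π]
  let t : Fin (Nat.card (G ⧸ H)) → G := fun l => (φ.symm l).out
  have ht' : ∀ l, φ (t l) = l := fun l => by simp [t]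
  have hx : ∀ x : G, ∃ u : (ZMod 3)ˣ, ρ x e = (u : ZMod 3) • ρ (t (φ x)) e := fun x => by
    obtain ⟨u, hu⟩ : (t (φ x))⁻¹ * x ∈ H := QuotientGroup.eq.1 (φ.injective (ht' _))
    exact ⟨u, by rw [← map_smul, ← hu, rep_apply, mul_inv_cancel_left]⟩
  have hε : ∀ g l, ∃ u : (ZMod 3)ˣ, ρ g (ρ (t l) e) = (u : ZMod 3) • ρ (t (π g l)) e := fun g l => by
    obtain ⟨u, hu⟩ := hx (g * t l)
    exact ⟨u, by rw [rep_apply, hu, ← hπ, ht']⟩
  choose ε hε using hε
  have hcan : ∀ {l} {u u' : (ZMod 3)ˣ}, (u : ZMod 3) • ρ (t l) e = (u' : ZMod 3) • ρ (t l) e →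
      u = u' := fun e' => Units.ext (smul_left_injective _ (rep_ne_zero ρ _ he.ne) e')
  have hM : Mono π ε := by
    refine ⟨fun g g' l => hcan (l := π (g * g') l) ?_, fun g h1 h2 => ?_, fun l l' => ?_⟩
    · rw [← hε, ← rep_apply, hε, map_smul, hε, smul_smul, Units.val_mul, mul_comm, map_mul,
        Equiv.Perm.mul_apply]
    · refine h.inj ((LinearMap.ext_on_range (v := fun x => ρ x e) ?_ fun x => ?_).trans
        (map_one ρ).symm)
      · refine (h.irr _ fun g => ?_).resolve_left fun e0 => he.ne ?_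
        · refine fun v hv => Submodule.mem_comap.1 (Submodule.span_le.2 ?_ hv)
          rintro _ ⟨x, rfl⟩
          exact Submodule.subset_span ⟨g * x, (rep_apply _ _ _ _).symm⟩
        · simpa using (Submodule.span_eq_bot.1 e0) _ ⟨1, rfl⟩
      · obtain ⟨u, hu⟩ := hx x
        rw [hu, map_smul, hε, h1, h2]
        simp
    · exact ⟨t l' * (t l)⁻¹, by nth_rw 2 [← ht' l]; rw [hπ, inv_mul_cancel_right, ht']⟩
  have hπN : ∀ n ∈ N, π n = 1 := fun n hn => Equiv.ext fun l => by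
    rw [← ht' l, hπ, Equiv.Perm.one_apply]
    refine congrArg φ (QuotientGroup.eq.2 (hNH _ ?_))
    simpa [mul_assoc] using hN.conj_mem _ (inv_mem hn) (t l)⁻¹
  have hsg : ∀ n ∈ N, ∀ (x : G) (s : (ZMod 3)ˣ), ρ n (ρ x e) = (s : ZMod 3) • ρ x e →
      ε n (φ x) = s := fun n hn x s hs => by
    obtain ⟨u, hu⟩ := hx x
    rw [hu, map_smul, hε, hπN n hn, Equiv.Perm.one_apply, smul_comm] at hs
    exact hcan (smul_right_injective W u.ne_zero (by simpa only [smul_comm (u : ZMod 3)] using hs))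
  have e1 := hsg a ha 1 1 (by simpa using he.e1)
  have e2 := hsg a ha b (-1) (by simpa using he.f1)
  have e3 := hsg a ha (b * b) (-1) (by simpa using he.g1)
  have f2 := hsg _ ha' b 1 (by rw [he.f2]; simp)
  have f3 := hsg _ ha' (b * b) (-1) (by rw [← rep_apply ρ b b, he.g2]; simp)
  have m1 : (1 : (ZMod 3)ˣ) ≠ -1 := by decide
  have hoth : ∀ l, l ≠ φ (1 : G) → l ≠ φ b → l ≠ φ (b * b : G) → π b l = l ∧ ε a l = 1 := by
    intro l n1 n2 n3
    have s1 := hε a l
    have s2 := hε (b * a * b⁻¹) l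
    rw [hπN _ ha, Equiv.Perm.one_apply] at s1
    rw [hπN _ ha', Equiv.Perm.one_apply] at s2
    rcases (dec4 (ε a l)).2 with u1 | u1 <;> rcases (dec4 (ε (b * a * b⁻¹) l)).2 with u2 | u2 <;>
      rw [u1] at s1 <;> rw [u2] at s2 <;>
      simp only [Units.val_one, one_smul, Units.val_neg, neg_smul] at s1 s2
    · refine ⟨?_, u1⟩
      have := he.w0 _ s1 s2
      rw [rep_apply, ← one_smul (ZMod 3) (ρ (t l) e)] at this
      rw [← ht' l, hπ, hH this]
    · obtain ⟨c, hc⟩ := he.w1 _ s1 s2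
      exact absurd (by rw [← ht' l, ← hH (y := 1) (c := c) (by simpa using hc)]) n1
    · obtain ⟨c, hc⟩ := he.w2 _ s1 s2
      exact absurd (by rw [← ht' l, ← hH hc]) n2
    · obtain ⟨c, hc⟩ := he.w3 _ s1 s2
      rw [rep_apply] at hc
      exact absurd (by rw [← ht' l, ← hH hc]) n3
  refine hM.concl h.idx h.b3 h.gen (a := a) (l1 := φ (1 : G)) (l2 := φ b) (l3 := φ (b * b : G))
    (fun e' => m1 (by rw [← e2, ← e', e1])) (fun e' => m1 (by rw [← e3, ← e', e1]))
    (fun e' => m1 (by rw [← f3, ← e', f2])) (by rw [hπ, mul_one]) (hπ _ _)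
    (by rw [hπ, ← pow_three, h.b3]) (fun l i j k => (hoth l i j k).1) (hπN a ha) e1 e2
    fun l i j k => (hoth l i j k).2

theorem odd_case [Module.Finite (ZMod 3) W] {N : Subgroup G} [hN : N.Normal] (hNR : N ≤ R)
    (hc : ∀ x ∈ N, ∀ y ∈ N, x * y = y * x) {y : G} (hy : y ∈ N) (hy1 : y ≠ 1)
    (odd : Odd (orderOf y)) (nm : y * (b * y * b⁻¹) * (b * (b * y * b⁻¹) * b⁻¹) = 1) : False := by
  obtain ⟨e, he⟩ := h.tri.fg h.inj h.b3 h.rk
  have hbb : b * b * b = 1 := by rw [← h.b3, pow_three']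
  have hb3 : ∀ n, b * (b * (b * n * b⁻¹) * b⁻¹) * b⁻¹ = n := fun n => by
    calc _ = b * b * b * n * (b * b * b)⁻¹ := by group
      _ = n := by rw [hbb]; group
  have hσ : ∀ n ∈ N, b * n * b⁻¹ ∈ N := fun n hn => hN.conj_mem n hn b
  set m := orderOf y
  let A : Subgroup G :=
    { carrier := {n | n ∈ N ∧ n ^ m = 1 ∧ n * (b * n * b⁻¹) * (b * (b * n * b⁻¹) * b⁻¹) = 1}
      one_mem' := ⟨N.one_mem, one_pow _, by group⟩
      mul_mem' := by
        rintro x z ⟨x1, x2, x3⟩ ⟨z1, z2, z3⟩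
        refine ⟨mul_mem x1 z1, by rw [Commute.mul_pow (hc x x1 z z1), x2, z2, one_mul], ?_⟩
        rw [← conj_mul, ← conj_mul]
        have i1 := hσ x x1
        have i2 := hσ _ i1
        have j1 := hσ z z1
        generalize b * (b * x * b⁻¹) * b⁻¹ = x'' at *
        generalize b * (b * z * b⁻¹) * b⁻¹ = z'' at *
        generalize b * x * b⁻¹ = x' at *
        generalize b * z * b⁻¹ = z' at *
        calc _ = x * (z * x') * (z' * x'') * z'' := by group
          _ = x * x' * (z * x'') * z' * z'' := by rw [hc z z1 x' i1, hc z' j1 x'' i2]; group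
          _ = x * x' * x'' * (z * z' * z'') := by rw [hc z z1 x'' i2]; group
          _ = 1 := by rw [x3, z3, one_mul]
      inv_mem' := by
        rintro x ⟨x1, x2, x3⟩
        refine ⟨inv_mem x1, by rw [inv_pow, x2, inv_one], ?_⟩
        rw [← conj_inv, ← conj_inv, ← mul_inv_rev, ← mul_inv_rev, inv_eq_one,
          hc _ (hσ x x1) x x1, hc _ (hσ _ (hσ x x1)) _ (mul_mem x1 (hσ x x1)), x3] }
  have hAN : ∀ a ∈ A, a ∈ N := fun a ha => ha.1
  have hyA : y ∈ A := ⟨hy, pow_orderOf_eq_one y, nm⟩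
  have hodd : ∀ {a : G}, a ^ m = 1 → Odd (orderOf a) := fun ha =>
    odd.of_dvd_nat (orderOf_dvd_of_pow_eq_one ha)
  have cop : ¬ 3 ∣ Nat.card A := fun e => h.cop (e.trans (card_dvd_of_le fun a ha => hNR ha.1))
  have hσA : ∀ a ∈ A, b * a * b⁻¹ ∈ A := fun a ha =>
    ⟨hσ a ha.1, by rw [conj_pow, ha.2.1]; group, by
      rw [conj_mul, conj_mul, ha.2.2]; group⟩
  have hbA : b ∈ normalizer (A : Set G) := mem_normalizer_iff.2 fun a =>
    ⟨hσA a, fun ha => hb3 a ▸ hσA _ (hσA _ ha)⟩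
  have hNA : ∀ n ∈ N, n ∈ normalizer (A : Set G) := fun n hn =>
    centralizer_le_normalizer _ fun a ha => hc a ha.1 n hn
  have hsub : ∀ a ∈ A, ∀ v, sm ρ A (ρ a v - v) = 0 := fun a ha v => by
    rw [map_sub, sm_mul ha, sub_self]
  obtain ⟨v0, hv0⟩ : ∃ v, ρ y v - v ≠ 0 := by
    by_contra! hv
    exact hy1 (h.inj ((LinearMap.ext fun v => sub_eq_zero.1 (hv v)).trans (map_one ρ).symm))
  obtain ⟨k1, k2⟩ := frob cop h.b3 hbA (fun a ha e => h.eq_one (hNR ha.1) (by
      have := ha.2.2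
      rwa [e, e, ← pow_three'] at this)) h.rk
    (he.norm (by rw [← map_mul, ← map_mul, hbb, map_one])) (hsub y hyA v0) hv0
  set U := LinearMap.ker (sm ρ A) with hU
  have hUN : ∀ n ∈ N, ∀ v ∈ U, ρ n v ∈ U := fun n hn v hv => by
    rw [hU, LinearMap.mem_ker, ← sm_conj (hNA n hn), LinearMap.mem_ker.1 hv, map_zero]
  have hirr : ∀ X : Submodule (ZMod 3) W, (∀ a ∈ A, ∀ v ∈ X, ρ a v ∈ X) → X ≤ U → X = ⊥ ∨ X = U :=
    fun X => irr3 cop (fun a ha => hodd ha.2.1) k2 (fun v hv => hv) fun a ha => hUN a ha.1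
  have hbU : b ∈ HH.stab ρ U := fun v hv => by
    rw [hU, LinearMap.mem_ker, ← sm_conj hbA, LinearMap.mem_ker.1 hv, map_zero]
  have hst : HH.stab ρ U = ⊤ := eq_top_of_conj h.gen fun g => by
    have hcj : ∀ n ∈ N, ∀ v, ρ g⁻¹ (ρ n v) = ρ (g⁻¹ * n * g⁻¹⁻¹) (ρ g⁻¹ v) := fun n _ v => by
      simp only [rep_apply]; congr 2; group
    rcases hirr (U ⊓ U.comap (ρ g⁻¹)) (fun a ha v hv => ⟨hUN a ha.1 v hv.1, by
        change ρ g⁻¹ (ρ a v) ∈ U
        rw [hcj a ha.1]
        exact hUN _ (hN.conj_mem a ha.1 _) _ hv.2⟩) inf_le_left with e0 | e0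
    · intro v hv
      have : ρ b (ρ g⁻¹ v) = ρ g⁻¹ v := k1 _ fun a ha => by
        have i1 : ρ (g * a * g⁻¹) v - v ∈ U ⊓ U.comap (ρ g⁻¹) :=
          ⟨U.sub_mem (hUN _ (hN.conj_mem a ha.1 g) v hv) hv, by
            change sm ρ A _ = 0
            rw [← hsub a ha (ρ g⁻¹ v), map_sub, rep_apply, rep_apply]
            congr 4; group⟩
        rw [e0, Submodule.mem_bot, sub_eq_zero] at i1
        nth_rw 2 [← i1]
        simp only [rep_apply]
        congr 2; group
      rw [← rep_apply, ← rep_apply, this, rep_apply, mul_inv_cancel, map_one]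
      exact hv
    · have hg : g⁻¹ ∈ HH.stab ρ U := fun v hv => (e0.ge hv).2
      exact mul_mem (mul_mem (by simpa using inv_mem hg) hbU) hg
  have hUt : U = ⊤ := (h.irr U fun g => (hst ▸ mem_top g : g ∈ HH.stab ρ U)).resolve_left
    fun e0 => hv0 ((Submodule.mem_bot _).1 (e0.le (hsub y hyA v0)))
  have hfin : ∀ a, Tri b a → a * y * a⁻¹ = y⁻¹ := by
    intro a ha
    by_contra hne
    have ai : a⁻¹ = a := inv_eq_of_mul_eq_one_left ha.sq
    have i1 := hN.conj_mem y hy a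
    have c1 : y * (a * y * a⁻¹) ≠ 1 := fun e0 => hne (eq_inv_of_mul_eq_one_right e0)
    have c2 : (y * (a * y * a⁻¹)) ^ m = 1 := by
      rw [Commute.mul_pow (hc y hy _ i1), conj_pow, pow_orderOf_eq_one]; group
    have c3 : a * (y * (a * y * a⁻¹)) = y * (a * y * a⁻¹) * a := by
      calc a * (y * (a * y * a⁻¹)) = a * (a * y * a⁻¹ * y) := by rw [hc y hy _ i1]
        _ = (a * a) * y * a⁻¹ * y := by group
        _ = y * a * y := by rw [ha.sq, ai, one_mul]
        _ = _ := by group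
    have c4 : y * (a * y * a⁻¹) ∈ N := mul_mem hy i1
    generalize y * (a * y * a⁻¹) = c at c1 c2 c3 c4
    have c5 : LinearMap.ker (ρ c - 1) = ⊥ := by
      refine (hirr _ (fun x hx v hv => ?_) (hUt ▸ le_top)).resolve_right fun e0 => c1 (h.inj ?_)
      · rw [LinearMap.mem_ker, LinearMap.sub_apply, sub_eq_zero, End.one_apply] at hv ⊢
        rw [rep_apply, hc c c4 x hx.1, ← rep_apply, hv]
      · rw [hUt, LinearMap.ker_eq_top, sub_eq_zero] at e0
        rw [e0, map_one]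
    obtain ⟨e', he'⟩ := ha.fg h.inj h.b3 h.rk
    rcases irr3 (A := zpowers c) (ρ := ρ) (U := LinearMap.ker (ρ a - 1)) (Y := ⊤)
      (fun e0 => h.cop (e0.trans (card_dvd_of_le (zpowers_le.2 (hNR c4)))))
      (fun x hx => (hodd c2).of_dvd_nat (orderOf_dvd_of_mem_zpowers hx)) (hUt ▸ k2)
      (fun v _ => (Submodule.mem_bot _).1 (c5.le (sub_eq_zero.2 (mul_sm (mem_zpowers c) v))))
      (fun _ _ _ _ => Submodule.mem_top) (fun x hx v hv => by
        rw [LinearMap.mem_ker, LinearMap.sub_apply, sub_eq_zero, End.one_apply] at hv ⊢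
        obtain ⟨i, rfl⟩ := mem_zpowers_iff.1 hx
        rw [rep_apply, (Commute.zpow_right c3 i).eq, ← rep_apply, hv]) le_top with e0 | e0
    · exact he'.ne ((Submodule.mem_bot _).1 (e0.le (sub_eq_zero.2 he'.e1)))
    · rw [LinearMap.ker_eq_top, sub_eq_zero] at e0
      exact ha.ne (h.inj (by rw [e0, map_one]))
  have i1 := hfin _ h.tri
  have i2 := hfin _ h.tri.conj
  have i3 := hfin _ h.tri.conj.conj
  rw [← h.tri.mul_eq, mul_inv_rev, mul_assoc q, ← mul_assoc, mul_assoc q, i2, ← conj_inv, i1,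
    inv_inv] at i3
  have i4 : y ^ 2 = 1 := by rw [pow_two]; nth_rw 2 [i3]; rw [mul_inv_cancel]
  rcases (Nat.dvd_prime Nat.prime_two).1 (orderOf_dvd_of_pow_eq_one i4) with e0 | e0
  · exact hy1 (orderOf_eq_one_iff.1 e0)
  · rw [show m = 2 from e0] at odd
    exact absurd odd (by decide)

end Cub

end CfsgLib.Cub3
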