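import Mathlib

/-!
Linear algebra over the field with three elements: an operator `X` of order three such that
`X - 1` has rank at most two.
-/

set_option autoImplicit false

namespace CfsgLib.Cub3

open Module

variable {W : Type*} [AddCommGroup W] [Module (ZMod 3) W]

theorem four_smul (v : W) : (4 : ZMod 3) • v = v := by
  rw [show (4 : ZMod 3) = 1 by decide, one_smul]

theorem three_smul (v : W) : (3 : ZMod 3) • v = 0 := by
  rw [show (3 : ZMod 3) = 0 by decide, zero_smul]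

theorem eq_zero_of_eq_neg {v : W} (h : v = -v) : v = 0 := by
  rw [← four_smul v]
  linear_combination (norm := module) (2 : ZMod 3) • h

theorem exists_dep [Module.Finite (ZMod 3) W] {D : End (ZMod 3) W}
    (rk : finrank (ZMod 3) (LinearMap.range D) ≤ 2) (u v w : W) :
    ∃ a b c : ZMod 3, (a ≠ 0 ∨ b ≠ 0 ∨ c ≠ 0) ∧ D (a • u + b • v + c • w) = 0 := by
  let f : Fin 3 → LinearMap.range D := ![⟨D u, u, rfl⟩, ⟨D v, v, rfl⟩, ⟨D w, w, rfl⟩]
  have h : ¬ LinearIndependent (ZMod 3) f := fun h => by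
    have := h.fintype_card_le_finrank
    rw [Fintype.card_fin] at this
    omega
  obtain ⟨g, hg, i, hi⟩ := Fintype.not_linearIndependent_iff.1 h
  refine ⟨g 0, g 1, g 2, ?_, ?_⟩
  · fin_cases i
    · exact Or.inl hi
    · exact Or.inr (Or.inl hi)
    · exact Or.inr (Or.inr hi)
  · have := congrArg Subtype.val hg
    simpa [Fin.sum_univ_three, f] using this

theorem indep {A A' : End (ZMod 3) W} {y0 y1 y2 y3 : W} (h : y0 + y1 + y2 + y3 = 0)
    (a0 : A y0 = y0) (b0 : A' y0 = y0) (a1 : A y1 = y1) (b1 : A' y1 = -y1) (a2 : A y2 = -y2)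
    (b2 : A' y2 = y2) (a3 : A y3 = -y3) (b3 : A' y3 = -y3) :
    y0 = 0 ∧ y1 = 0 ∧ y2 = 0 ∧ y3 = 0 := by
  have h1 := congrArg A h
  have h2 := congrArg A' h
  have h3 := congrArg A h2
  simp only [map_add, map_neg, map_zero, a0, b0, a1, b1, a2, b2, a3, b3] at h1 h2 h3
  refine ⟨?_, ?_, ?_, ?_⟩ <;> refine (four_smul _).symm.trans ?_
  · linear_combination (norm := module) h + h1 + h2 + h3
  · linear_combination (norm := module) h + h1 - h2 - h3
  · linear_combination (norm := module) h - h1 + h2 - h3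
  · linear_combination (norm := module) h - h1 - h2 + h3

/-- the weight spaces of a four-group normalized by `X` -/
structure FG (A A' X : End (ZMod 3) W) (e : W) : Prop where
  ne : e ≠ 0
  e1 : A e = e
  e2 : A' e = -e
  f1 : A (X e) = -X e
  f2 : A' (X e) = X e
  g1 : A (X (X e)) = -X (X e)
  g2 : A' (X (X e)) = -X (X e)
  w0 : ∀ v, A v = v → A' v = v → X v = v
  w1 : ∀ v, A v = v → A' v = -v → ∃ c : ZMod 3, v = c • e
  w2 : ∀ v, A v = -v → A' v = v → ∃ c : ZMod 3, v = c • X e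
  w3 : ∀ v, A v = -v → A' v = -v → ∃ c : ZMod 3, v = c • X (X e)
  dec : ∀ v, ∃ v0, A v0 = v0 ∧ A' v0 = v0 ∧
    ∃ c1 c2 c3 : ZMod 3, v = v0 + c1 • e + c2 • X e + c3 • X (X e)

theorem exists_fg [Module.Finite (ZMod 3) W] {A A' X : End (ZMod 3) W} (hA : A * A = 1)
    (hA' : A' * A' = 1) (hc : A * A' = A' * A) (h1 : A' * X = X * A) (h2 : A * X = X * A * A')
    (h3 : X * X * X = 1) (hne : A ≠ 1) (rk : finrank (ZMod 3) (LinearMap.range (X - 1)) ≤ 2) :
    ∃ e, FG A A' X e := by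
  have hA1 : ∀ v, A (A v) = v := fun v => LinearMap.congr_fun hA v
  have hA2 : ∀ v, A' (A' v) = v := fun v => LinearMap.congr_fun hA' v
  have hc1 : ∀ v, A (A' v) = A' (A v) := fun v => LinearMap.congr_fun hc v
  have k1 : ∀ v, A' (X v) = X (A v) := fun v => LinearMap.congr_fun h1 v
  have k2 : ∀ v, A (X v) = X (A (A' v)) := fun v => LinearMap.congr_fun h2 v
  have k3 : ∀ v, X (X (X v)) = v := fun v => LinearMap.congr_fun h3 v
  have hX : ∀ v, X v = 0 → v = 0 := fun v h => by rw [← k3 v, h, map_zero, map_zero]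
  have hdec : ∀ v, ∃ y0 y1 y2 y3, v = y0 + y1 + y2 + y3 ∧ (A y0 = y0 ∧ A' y0 = y0) ∧
      (A y1 = y1 ∧ A' y1 = -y1) ∧ (A y2 = -y2 ∧ A' y2 = y2) ∧ (A y3 = -y3 ∧ A' y3 = -y3) := by
    intro v
    refine ⟨v + A v + A' v + A' (A v), v + A v - A' v - A' (A v), v - A v + A' v - A' (A v),
      v - A v - A' v + A' (A v), ?_, ?_⟩
    · nth_rw 1 [← four_smul v]; module
    · simp only [map_add, map_sub, hc1, hA1, hA2]
      refine ⟨⟨?_, ?_⟩, ⟨?_, ?_⟩, ⟨?_, ?_⟩, ?_, ?_⟩ <;> abel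
  have s2 : ∀ v, A v = -v → A' v = v → A (X (X v)) = X (X v) ∧ A' (X (X v)) = -X (X v) := by
    intro v a b
    simp [k1, k2, a, b]
  have s3 : ∀ v, A v = -v → A' v = -v → A (X v) = X v ∧ A' (X v) = -X v := by
    intro v a b
    simp [k1, k2, a, b]
  have hKI : ∀ x0 x1 x2, A x0 = x0 → A' x0 = x0 → A x1 = x1 → A' x1 = -x1 → A x2 = -x2 →
      A' x2 = x2 → (X - 1) (x1 + x2 + x0) = 0 → x1 = 0 ∧ x2 = 0 := by
    intro x0 x1 x2 a0 b0 a1 b1 a2 b2 h
    have := indep (A := A) (A' := A') (y0 := X x0 - x0) (y1 := -x1) (y2 := X x1 - x2) (y3 := X x2)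
      (by rw [← h]; simp only [LinearMap.sub_apply, map_add, End.one_apply]; abel)
      (by simp [k2, a0, b0]) (by simp [k1, a0, b0]) (by simp [a1]) (by simp [b1])
      (by simp [k2, a1, b1, a2]; abel) (by simp [k1, a1, b2]) (by simp [k2, a2, b2])
      (by simp [k1, a2])
    exact ⟨neg_eq_zero.1 this.2.1, hX _ this.2.2.2⟩
  obtain ⟨e, he, e1, e2⟩ : ∃ e, e ≠ 0 ∧ A e = e ∧ A' e = -e := by
    by_contra! h
    have h' : ∀ v, A v = v → A' v = -v → v = 0 := fun v a b => by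
      by_contra hv; exact h v hv a b
    refine hne (LinearMap.ext fun v => ?_)
    obtain ⟨y0, y1, y2, y3, rfl, ⟨a0, -⟩, ⟨a1, b1⟩, ⟨a2, b2⟩, a3, b3⟩ := hdec v
    have z2 := hX _ (hX _ (h' _ (s2 _ a2 b2).1 (s2 _ a2 b2).2))
    have z3 := hX _ (h' _ (s3 _ a3 b3).1 (s3 _ a3 b3).2)
    simp [z2, z3, a0, a1]
  have f1 : A (X e) = -X e := by simp [k2, e1, e2]
  have f2 : A' (X e) = X e := by simp [k1, e1]
  have hs : ∀ {c : ZMod 3} {v : W}, v ≠ 0 → c • v = 0 → c = 0 := fun hv h =>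
    (smul_eq_zero.1 h).resolve_right hv
  have hXe : X e ≠ 0 := fun h => he (hX _ h)
  have w1 : ∀ v, A v = v → A' v = -v → ∃ c : ZMod 3, v = c • e := by
    intro v a b
    obtain ⟨c1, c2, c3, hcc, h⟩ := exists_dep rk e v (X e)
    obtain ⟨z1, z2⟩ := hKI 0 (c1 • e + c2 • v) (c3 • X e) (by simp) (by simp) (by simp [e1, a])
      (by simp [e2, b]; abel) (by simp [f1]) (by simp [f2]) (by rw [add_zero]; exact h)
    have z3 := hs hXe z2
    by_cases z4 : c2 = 0
    · rw [z4, zero_smul, add_zero] at z1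
      simp [hs he z1, z3, z4] at hcc
    · refine ⟨-(c2⁻¹ * c1), ?_⟩
      rw [← one_smul (ZMod 3) v, ← inv_mul_cancel₀ z4]
      linear_combination (norm := module) c2⁻¹ • z1
  have w2 : ∀ v, A v = -v → A' v = v → ∃ c : ZMod 3, v = c • X e := by
    intro v a b
    obtain ⟨c, hc⟩ := w1 _ (s2 v a b).1 (s2 v a b).2
    exact ⟨c, by rw [← map_smul, ← hc, k3]⟩
  have w3 : ∀ v, A v = -v → A' v = -v → ∃ c : ZMod 3, v = c • X (X e) := by
    intro v a b
    obtain ⟨c, hc⟩ := w1 _ (s3 v a b).1 (s3 v a b).2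
    exact ⟨c, by rw [← map_smul, ← map_smul, ← hc, k3]⟩
  refine ⟨e, he, e1, e2, f1, f2, by simp [k1, k2, e1, e2], by simp [k1, k2, e1, e2],
    fun v a b => ?_, w1, w2, w3, fun v => ?_⟩
  · obtain ⟨c1, c2, c3, hcc, h⟩ := exists_dep rk e (X e) v
    obtain ⟨z1, z2⟩ := hKI (c3 • v) (c1 • e) (c2 • X e) (by simp [a]) (by simp [b]) (by simp [e1])
      (by simp [e2]) (by simp [f1]) (by simp [f2]) h
    rw [z1, z2, zero_add, zero_add, map_smul, smul_eq_zero] at h
    rcases h with h | h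
    · simp [hs he z1, hs hXe z2, h] at hcc
    · exact sub_eq_zero.1 h
  · obtain ⟨y0, y1, y2, y3, rfl, ⟨a0, b0⟩, ⟨a1, b1⟩, ⟨a2, b2⟩, a3, b3⟩ := hdec v
    obtain ⟨c1, rfl⟩ := w1 _ a1 b1
    obtain ⟨c2, rfl⟩ := w2 _ a2 b2
    obtain ⟨c3, rfl⟩ := w3 _ a3 b3
    exact ⟨y0, a0, b0, c1, c2, c3, rfl⟩

theorem FG.norm {A A' X : End (ZMod 3) W} {e : W} (h : FG A A' X e) (h3 : X * X * X = 1) (v : W) :
    ∃ c : ZMod 3, v + X v + X (X v) = c • (e + X e + X (X e)) := by
  have k3 : ∀ v, X (X (X v)) = v := fun v => LinearMap.congr_fun h3 v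
  obtain ⟨v0, a0, b0, c1, c2, c3, rfl⟩ := h.dec v
  refine ⟨c1 + c2 + c3, ?_⟩
  simp only [map_add, map_smul, k3, h.w0 v0 a0 b0]
  linear_combination (norm := module) three_smul v0

theorem FG.norm_ne {A A' X : End (ZMod 3) W} {e : W} (h : FG A A' X e) :
    e + X e + X (X e) ≠ 0 := fun h0 =>
  h.ne (indep (A := A) (A' := A') (y0 := 0) (by rw [zero_add]; exact h0) (by simp) (by simp) h.e1
    h.e2 h.f1 h.f2 h.g1 h.g2).2.1

theorem sq_sub_one {X : End (ZMod 3) W} (v : W) :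
    (X - 1) ((X - 1) v) = v + X v + X (X v) := by
  simp only [LinearMap.sub_apply, End.one_apply, map_sub]
  linear_combination (norm := module) -three_smul (X v)

theorem cube_sub_one {X : End (ZMod 3) W} (h3 : X * X * X = 1) (v : W) :
    (X - 1) ((X - 1) ((X - 1) v)) = 0 := by
  have k3 : ∀ v, X (X (X v)) = v := fun v => LinearMap.congr_fun h3 v
  rw [sq_sub_one v]
  simp only [LinearMap.sub_apply, End.one_apply, map_add, k3]
  abel

theorem odd_step {T : End (ZMod 3) W} {m : ℕ} (hm : Odd m) (hT : T ^ m = 1)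
    {U : Submodule (ZMod 3) W} (hU : ∀ v ∈ U, T v ∈ U) {y : W} {c : ZMod 3}
    (h : T y - c • y ∈ U) : T y - y ∈ U := by
  have h1 : ∀ n : ℕ, (T ^ n) y - c ^ n • y ∈ U := by
    intro n
    induction n with
    | zero => simp
    | succ n ih =>
      have : (T ^ (n + 1)) y - c ^ (n + 1) • y = T ((T ^ n) y - c ^ n • y) +
          c ^ n • (T y - c • y) := by
        rw [pow_succ' T, End.mul_apply, map_sub, map_smul]; module
      rw [this]
      exact U.add_mem (hU _ ih) (U.smul_mem _ h)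
  have h2 := h1 m
  rw [hT, End.one_apply] at h2
  have h3 : c ^ m = c := by
    obtain ⟨j, rfl⟩ := hm
    have : ∀ c : ZMod 3, c = 0 ∨ c ^ 2 = 1 := by decide
    rcases this c with h | h
    · simp [h]
    · rw [pow_succ, pow_mul, h, one_pow, one_mul]
  rw [h3] at h2
  have := U.sub_mem h h2
  rwa [sub_sub_sub_cancel_right] at this

theorem exists_sub_mem {U Y : Submodule (ZMod 3) W} {y v : W}
    (hY : U ⊔ Submodule.span (ZMod 3) {y} = Y) (hv : v ∈ Y) : ∃ c : ZMod 3, v - c • y ∈ U := by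
  rw [← hY, Submodule.mem_sup] at hv
  obtain ⟨u, hu, z, hz, rfl⟩ := hv
  obtain ⟨c, rfl⟩ := Submodule.mem_span_singleton.1 hz
  exact ⟨c, by simpa using hu⟩

theorem sup_eq_of_finrank [Module.Finite (ZMod 3) W] {U Y : Submodule (ZMod 3) W} {y : W}
    (hUY : U ≤ Y) (hy : y ∈ Y) (hy' : y ∉ U)
    (h : finrank (ZMod 3) Y ≤ finrank (ZMod 3) U + 1) : U ⊔ Submodule.span (ZMod 3) {y} = Y := by
  refine Submodule.eq_of_le_of_finrank_le (sup_le hUY ((Submodule.span_singleton_le_iff_mem _ _).2 hy))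
    (h.trans (Submodule.finrank_lt_finrank_of_lt (lt_of_le_of_ne le_sup_left fun h' => hy' ?_)))
  rw [h']
  exact Submodule.mem_sup_right (Submodule.mem_span_singleton_self y)

theorem sum_orbits {α : Type*} [DecidableEq α] (σ : α → α) (h3 : ∀ a, σ (σ (σ a)) = a) (f : α → W)
    (M : Submodule (ZMod 3) W) (hf : ∀ a, f a + f (σ a) + f (σ (σ a)) ∈ M) (s : Finset α) :
    (∀ a ∈ s, σ a ∈ s) → (∀ a ∈ s, σ a ≠ a) → ∑ a ∈ s, f a ∈ M := by
  induction s using Finset.strongInduction with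
  | H s ih =>
    intro h1 h2
    rcases s.eq_empty_or_nonempty with rfl | ⟨a, ha⟩
    · simp
    have hinj : ∀ x y, σ x = σ y → x = y := fun x y h => by rw [← h3 x, h, h3]
    have n1 := h2 a ha
    have n2 : σ (σ a) ≠ σ a := fun h => n1 (hinj _ _ h)
    have n3 : σ (σ a) ≠ a := fun h => n1 (by have := congrArg σ h; rw [h3] at this; exact this.symm)
    have hsub : ({a, σ a, σ (σ a)} : Finset α) ⊆ s := by
      intro x hx
      simp only [Finset.mem_insert, Finset.mem_singleton] at hx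
      rcases hx with rfl | rfl | rfl
      exacts [ha, h1 _ ha, h1 _ (h1 _ ha)]
    rw [← Finset.sum_sdiff hsub]
    refine M.add_mem (ih _ (Finset.sdiff_ssubset hsub ⟨a, by simp⟩) (fun x hx => ?_)
      fun x hx => h2 x (Finset.mem_sdiff.1 hx).1) ?_
    · rw [Finset.mem_sdiff] at hx ⊢
      refine ⟨h1 _ hx.1, fun h => hx.2 ?_⟩
      simp only [Finset.mem_insert, Finset.mem_singleton] at h ⊢
      rcases h with h | h | h
      · exact Or.inr (Or.inr (by rw [← h, h3]))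
      · exact Or.inl (hinj _ _ h)
      · exact Or.inr (Or.inl (hinj _ _ h))
    · rw [Finset.sum_insert (by simp [n1.symm, n3.symm]), Finset.sum_insert (by simp [n2.symm]),
        Finset.sum_singleton, ← add_assoc]
      exact hf a

end CfsgLib.Cub3
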