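import Cfsg.Agent.Lib.Cub3.Abel
import Cfsg.Agent.Lib.Count.Basic
import Cfsg.Agent.Lib.Transfer.Frobenius
import Cfsg.Agent.Lib.Core.MinNormal
import Cfsg.Agent.Lib.Core.Commutator
import Cfsg.Agent.Lib.PGroup.Basic
import Cfsg.Agent.Lib.LowDeg.Green1

/-!
The case in which all abelian normal subgroups are central does not occur.
-/

set_option autoImplicit false

namespace CfsgLib.Cub3

open Module Subgroup
open scoped commutatorElement IsMulCommutative

theorem polar {N M : Type*} [Group N] [CommGroup M] (c : N →* N →* M) (σ : N →* N)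
    (h3 : ∀ x, σ (σ (σ x)) = x) (hinv : ∀ x y, c (σ x) (σ y) = c x y)
    (halt : ∀ x y, c x y = (c y x)⁻¹) (H : ∀ x, c (x⁻¹ * σ x) (σ (x⁻¹ * σ x)) = 1) (x y : N) :
    c x (y⁻¹ * σ y) ^ 3 = 1 := by
  have h1 := H (x * σ (σ y))
  have h2 := H x
  have h4 := H (σ (σ y))
  have a1 : c (σ x) y = c x (σ (σ y)) := by rw [← hinv x, h3]
  have a2 : c (σ (σ x)) y = c x (σ y) := by rw [← hinv, h3]
  have a3 : c (σ (σ x)) (σ (σ y)) = c x y := by rw [hinv, hinv]
  simp only [map_mul, map_inv, MonoidHom.mul_apply, MonoidHom.inv_apply, h3] at h1 h2 h4 ⊢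
  rw [halt (σ (σ y)) (σ x), halt (σ (σ y)) (σ (σ x)), halt y (σ x), halt y (σ (σ x)), a1, a2, a3,
    hinv x (σ y), hinv x y] at h1
  apply Additive.ofMul.injective
  replace h1 := congrArg Additive.ofMul h1
  replace h2 := congrArg Additive.ofMul h2
  replace h4 := congrArg Additive.ofMul h4
  simp only [ofMul_mul, ofMul_inv, ofMul_pow, ofMul_one] at h1 h2 h4 ⊢
  linear_combination (norm := abel) h2 + h4 - h1

variable {G : Type*} [Group G] {W : Type*} [AddCommGroup W] [Module (ZMod 3) W]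

theorem card_dvd [Finite G] [Module.Finite (ZMod 3) W] {ρ : Representation (ZMod 3) G W}
    (inj : Function.Injective ρ) (h4 : finrank (ZMod 3) W ≤ 4) : Nat.card G ∣ 24261120 := by
  let e := LinearMap.toMatrixAlgEquiv (finBasis (ZMod 3) W)
  let f : G →* GL (Fin (finrank (ZMod 3) W)) (ZMod 3) := (e.toMulEquiv.toMonoidHom.comp ρ).toHomUnits
  have hf : Function.Injective f := fun x y hxy => inj (e.injective (congrArg Units.val hxy))
  refine (card_dvd_of_injective f hf).trans ?_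
  rw [Matrix.card_GL_field, ZMod.card]
  generalize finrank (ZMod 3) W = n at h4
  interval_cases n <;> decide

namespace Cub

variable [Finite G] [Module.Finite (ZMod 3) W] {ρ : Representation (ZMod 3) G W} {R : Subgroup G}
  {b q : G} (h : Cub ρ R b q)
include h

theorem dim_le [Group.IsSolvable G] [R.Normal]
    (H : ∀ N : Subgroup G, N.Normal → N ≤ R → (∀ x ∈ N, ∀ y ∈ N, x * y = y * x) →
      ∀ n ∈ N, b * n * b⁻¹ = n) : finrank (ZMod 3) W ≤ 4 := by
  have hbb : b * b * b = 1 := by rw [← h.b3, pow_three']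
  have hb3 : ∀ n, b * (b * (b * n * b⁻¹) * b⁻¹) * b⁻¹ = n := fun n => by
    calc _ = b * b * b * n * (b * b * b)⁻¹ := by group
      _ = n := by rw [hbb]; group
  obtain ⟨N, ⟨hN, hNR, n0, hn0, hn1⟩, hmin⟩ := exists_minimal_of_wellFoundedLT
    (fun N : Subgroup G => N.Normal ∧ N ≤ R ∧ ∃ n ∈ N, b * n * b⁻¹ ≠ n)
    ⟨R, inferInstance, le_rfl, q, h.mem, h.tri.not_comm⟩
  have hlt : ⁅N, N⁆ < N := IsSolvable.commutator_lt_of_ne_bot (by
    rintro rfl
    exact hn1 (by rw [mem_bot.1 hn0]; group))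
  have hc : ∀ x ∈ N, ∀ y ∈ N, ⁅x, y⁆ ∈ center G := fun x hx y hy => mem_center_iff.2 fun g => by
    refine (h.central (N := ⁅N, N⁆) (fun n hn => ?_) (commutator_mem_commutator hx hy) g).symm
    by_contra hn'
    exact hlt.not_ge (hmin ⟨inferInstance, hlt.le.trans hNR, n, hn, hn'⟩ hlt.le)
  obtain ⟨x, hx, hx'⟩ : ∃ x ∈ N, ⁅x⁻¹ * (b * x * b⁻¹), b * (x⁻¹ * (b * x * b⁻¹)) * b⁻¹⁆ ≠ 1 := by
    by_contra! hx
    let c : N →* N →* center G := MonoidHom.mk' (fun x : N => MonoidHom.mk'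
      (fun y : N => (⟨⁅(x : G), (y : G)⁆, hc _ x.2 _ y.2⟩ : center G)) fun y z => Subtype.ext
        (Core.commutatorElement_mul_right_of_commute (mem_center_iff.1 (hc _ x.2 _ z.2) _)))
      fun x y => MonoidHom.ext fun z => Subtype.ext (by
        change ⁅(x : G) * y, (z : G)⁆ = ⁅(x : G), (z : G)⁆ * ⁅(y : G), (z : G)⁆
        rw [Core.commutatorElement_mul_left_of_commute (mem_center_iff.1 (hc _ y.2 _ z.2) _),
          mem_center_iff.1 (hc _ y.2 _ z.2)])
    have h1 := polar c (MulAut.conjNormal (H := N) b).toMonoidHom (fun x => Subtype.ext (hb3 x))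
      (fun x y => Subtype.ext (by
        change ⁅b * x * b⁻¹, b * y * b⁻¹⁆ = ⁅(x : G), (y : G)⁆
        rw [← conjugate_commutatorElement, mem_center_iff.1 (hc _ x.2 _ y.2),
          mul_inv_cancel_right]))
      (fun x y => Subtype.ext (commutatorElement_inv _ _).symm) (fun x => Subtype.ext (hx x x.2))
    have h0 : n0⁻¹ * (b * n0 * b⁻¹) ∈ N := mul_mem (inv_mem hn0) (hN.conj_mem _ hn0 b)
    have h2 : n0⁻¹ * (b * n0 * b⁻¹) ∈ N ⊓ centralizer (N : Set G) :=
      ⟨h0, fun y hy => commutatorElement_eq_one_iff_mul_comm.1 (h.eq_one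
        (hNR (hlt.le (commutator_mem_commutator hy h0)))
        (congrArg Subtype.val (h1 ⟨y, hy⟩ ⟨n0, hn0⟩)))⟩
    have h3 := H (N ⊓ centralizer (N : Set G)) inferInstance (inf_le_left.trans hNR)
      (fun x hx y hy => hy.2 x hx.1) _ h2
    have h4 := h.eq_one (hNR h2.1) (by
      have e : ∀ y : G, b * y * b⁻¹ = y →
          y ^ 3 = y * (b * y * b⁻¹) * (b * (b * y * b⁻¹) * b⁻¹) := fun y hy => by
        rw [hy, hy, pow_three']
      rw [e _ h3]
      calc _ = n0⁻¹ * (b * b * b) * n0 * (b * b * b)⁻¹ := by group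
        _ = 1 := by rw [hbb]; group)
    exact hn1 (inv_mul_eq_one.1 h4).symm
  set M := LinearMap.range (ρ b - 1) ⊔ (LinearMap.range (ρ b - 1)).map (ρ x⁻¹) with hM
  let K : Subgroup G :=
    { carrier := {g | ∀ v, ρ g v - v ∈ M}
      one_mem' := fun v => by simp
      mul_mem' := fun {g g'} hg hg' v => by
        have := M.add_mem (hg (ρ g' v)) (hg' v)
        rwa [sub_add_sub_cancel, rep_apply] at this
      inv_mem' := fun {g} hg v => by
        have := M.neg_mem (hg (ρ g⁻¹ v))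
        rwa [neg_sub, rep_apply, mul_inv_cancel, map_one] at this }
  have k1 : b ∈ K := fun v => Submodule.mem_sup_left ⟨v, rfl⟩
  have k2 : x⁻¹ * b * x ∈ K := fun v => Submodule.mem_sup_right ⟨_, ⟨ρ x v, rfl⟩, by
    simp only [LinearMap.sub_apply, End.one_apply, map_sub, rep_apply, inv_mul_cancel, map_one,
      mul_assoc]⟩
  have k3 : x⁻¹ * (b * x * b⁻¹) ∈ K := by simpa [mul_assoc] using mul_mem k2 (inv_mem k1)
  have k4 : x⁻¹ * (b * x * b⁻¹) ∈ N := mul_mem (inv_mem hx) (hN.conj_mem _ hx b)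
  have k5 := hc _ k4 _ (hN.conj_mem _ k4 b)
  have k6 : ⁅x⁻¹ * (b * x * b⁻¹), b * (x⁻¹ * (b * x * b⁻¹)) * b⁻¹⁆ ∈ K :=
    have k := mul_mem (mul_mem k1 k3) (inv_mem k1)
    mul_mem (mul_mem (mul_mem k3 k) (inv_mem k3)) (inv_mem k)
  generalize ⁅x⁻¹ * (b * x * b⁻¹), b * (x⁻¹ * (b * x * b⁻¹)) * b⁻¹⁆ = z at hx' k5 k6
  have k7 : LinearMap.range (ρ z - 1) = ⊤ := by
    refine (h.irr _ fun g => ?_).resolve_left fun e => hx' (h.inj ?_)
    · rintro _ ⟨v, rfl⟩
      exact ⟨ρ g v, by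
        simp only [LinearMap.sub_apply, End.one_apply, map_sub, rep_apply, mem_center_iff.1 k5 g]⟩
    · rw [LinearMap.range_eq_bot, sub_eq_zero] at e
      rw [e, map_one]
  have k8 : ⊤ ≤ M := by
    rw [← k7]
    rintro _ ⟨v, rfl⟩
    exact k6 v
  have k9 := Submodule.finrank_mono k8
  have k10 := Submodule.finrank_add_le_finrank_add_finrank (LinearMap.range (ρ b - 1))
    ((LinearMap.range (ρ b - 1)).map (ρ x⁻¹))
  have k11 := Submodule.finrank_map_le (ρ x⁻¹) (LinearMap.range (ρ b - 1))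
  have := h.rk
  rw [finrank_top, hM] at k9
  omega

theorem eq_one_of_odd (h4 : finrank (ZMod 3) W ≤ 4) {c : G} (hc : c ∈ R) (odd : Odd (orderOf c))
    (hb : b * c * b⁻¹ = c) : c = 1 := by
  obtain ⟨e, he⟩ := h.tri.fg h.inj h.b3 h.rk
  have hbb : ρ b * ρ b * ρ b = 1 := by rw [← map_mul, ← map_mul, ← pow_three', h.b3, map_one]
  have hcomm : Commute b c := mul_inv_eq_iff_eq_mul.1 hb
  have cop : ¬ 3 ∣ Nat.card (zpowers c) := fun e0 =>
    h.cop (e0.trans (card_dvd_of_le (zpowers_le.2 hc)))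
  have odd' : ∀ a ∈ zpowers c, Odd (orderOf a) := fun a ha =>
    odd.of_dvd_nat (orderOf_dvd_of_mem_zpowers ha)
  have hbc : ∀ a ∈ zpowers c, ∀ v, ρ a (ρ b v) = ρ b (ρ a v) := fun a ha v => by
    obtain ⟨i, rfl⟩ := mem_zpowers_iff.1 ha
    rw [rep_apply, rep_apply, (hcomm.zpow_right i).eq]
  have hbn : b ∈ normalizer (zpowers c : Set G) := centralizer_le_normalizer _ fun a ha => by
    obtain ⟨i, rfl⟩ := mem_zpowers_iff.1 ha
    exact (hcomm.zpow_right i).eq.symm
  have hu : ∀ a ∈ zpowers c, ρ a (e + ρ b e + ρ b (ρ b e)) = e + ρ b e + ρ b (ρ b e) :=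
    fun a ha => by
      obtain ⟨d, hd⟩ := he.norm hbb (ρ a e)
      refine sub_eq_zero.1 ((Submodule.mem_bot _).1 (odd_step (U := ⊥) (c := d) (odd' a ha)
        (by rw [← map_pow, pow_orderOf_eq_one, map_one]) (fun v hv => by
          simp [(Submodule.mem_bot _).1 hv]) ?_))
      rw [← hd, map_add, map_add, hbc a ha, hbc a ha, hbc a ha, sub_self]
      exact Submodule.zero_mem _
  let Y : Submodule (ZMod 3) W := LinearMap.range (sm ρ (zpowers c))
  have hYD : ∀ v ∈ Y, (ρ b - 1) v ∈ Y := by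
    rintro _ ⟨v, rfl⟩
    exact ⟨(ρ b - 1) v, by simp [sm_conj hbn]⟩
  have h1 : (((ρ b - 1) ^ 2 : End (ZMod 3) W) (sm ρ (zpowers c) e)) ≠ 0 := by
    rw [pow_two, End.mul_apply, sq_sub_one, sm_conj hbn, sm_conj hbn, ← map_add, ← map_add,
      sm_fix hu]
    exact smul_ne_zero (cast_ne_zero cop) he.norm_ne
  have h2 := LowDeg.li_pow (T := ρ b - 1) (r := 2) (LinearMap.ext (cube_sub_one hbb)) h1
  have h3 : 3 ≤ finrank (ZMod 3) Y := by
    have hm : ∀ j : ℕ, ((ρ b - 1) ^ j : End (ZMod 3) W) (sm ρ (zpowers c) e) ∈ Y := fun j => by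
      induction j with
      | zero => exact ⟨e, rfl⟩
      | succ j ih => rw [pow_succ']; exact hYD _ ih
    have h3 := (LinearIndependent.of_comp Y.subtype
      (v := fun j : Fin (2 + 1) => (⟨_, hm j⟩ : Y)) h2).fintype_card_le_finrank
    rwa [Fintype.card_fin] at h3
  have h5 : ∀ y, y ∈ Y := fun y => by
    by_contra hy
    refine hy (mem_of_sup (ρ := ρ) cop odd' ?_ (sup_eq_of_finrank le_top Submodule.mem_top hy
      (by rw [finrank_top]; omega)) (fun _ _ => Submodule.mem_top) ⟨y, rfl⟩)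
    rintro a ha _ ⟨v, rfl⟩
    exact ⟨v, (mul_sm ha v).symm⟩
  refine h.inj ((LinearMap.ext fun v => ?_).trans (map_one ρ).symm)
  obtain ⟨w, rfl⟩ := h5 v
  exact mul_sm (mem_zpowers c) w

theorem isPGroup [Group.IsSolvable G] [R.Normal]
    (H : ∀ N : Subgroup G, N.Normal → N ≤ R → (∀ x ∈ N, ∀ y ∈ N, x * y = y * x) →
      ∀ n ∈ N, b * n * b⁻¹ = n) : IsPGroup 2 R := by
  have h4 := h.dim_le H
  have hd := card_dvd h.inj h4
  have hO : Cfsg.pPrimeCore 2 R = ⊥ := by
    by_contra hO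
    rw [Core.pPrimeCore_eq_subgroupOf_of_normal, subgroupOf_eq_bot, disjoint_iff] at hO
    obtain ⟨p, N, -, n1, n2, n3, n4, -⟩ :=
      Core.exists_elementaryAbelian_normalized_le (A := ⊤) (le_normalizer_of_normal) hO
    have : N.Normal := normalizer_eq_top_iff.1 (top_le_iff.1 n1)
    refine n2 (eq_bot_iff.2 fun n hn => h.eq_one_of_odd h4 (n3 hn).2 ?_ (H N this
      (n3.trans inf_le_right) (fun x hx y hy => ?_) n hn))
    · exact (Nat.coprime_two_right.1 (Core.coprime_card_pPrimeCore 2 G)).of_dvd_nat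
        (orderOf_dvd_natCard _ (n3 hn).1)
    · exact congrArg Subtype.val (n4.1.is_comm.comm ⟨x, hx⟩ ⟨y, hy⟩)
  have hRd : Nat.card R ∣ 24261120 := R.card_subgroup_dvd_card.trans hd
  have h5 : ¬ 5 ∣ Nat.card R := fun e5 => by
    have := Fact.mk Nat.prime_five
    obtain ⟨S, hS⟩ := Count.exists_sylow_normalized (p := 5) (q := 3) (k := 1) R h.cop
      (by rw [pow_one, h.b3]) (le_normalizer_of_normal (mem_top b))
    have s1 : Nat.card ((S : Subgroup R).map R.subtype) = 5 := by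
      rw [card_map_of_injective R.subtype_injective]
      obtain ⟨k, hk⟩ := S.isPGroup'.exists_card_eq
      have s2 := (card_subgroup_dvd_card (S : Subgroup R)).trans hRd
      have s3 := S.dvd_card_of_dvd_card e5
      rw [hk] at s2 s3 ⊢
      rcases k with _ | _ | k
      · simp at s3
      · rfl
      · exact absurd ((pow_dvd_pow 5 (by omega : 2 ≤ k + 1 + 1)).trans s2) (by norm_num)
    have s4 := Transfer.card_modEq_card_inf_centralizer (q := 3) hS ⟨1, by rw [pow_one, h.b3]⟩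
    rw [s1, show _ ⊓ centralizer {b} = ⊥ from eq_bot_iff.2 fun c hc => h.eq_one_of_odd h4
      (map_subtype_le _ hc.1) ((show Odd 5 by decide).of_dvd_nat (s1 ▸ orderOf_dvd_natCard _ hc.1))
      (mul_inv_eq_iff_eq_mul.2 (hc.2 b rfl)), card_bot] at s4
    exact absurd s4 (by decide)
  have h13 : ¬ 13 ∣ Nat.card R := fun e13 => by
    have := Fact.mk (by norm_num : Nat.Prime 13)
    obtain ⟨c, hc⟩ := exists_prime_orderOf_dvd_card' 13 e13
    have s1 := Transfer.card_modEq_card_inf_centralizer (q := 13) (Q := Cfsg.pCore 2 R) (g := c)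
      (le_normalizer_of_normal (mem_top c)) ⟨1, by rw [pow_one, ← hc, pow_orderOf_eq_one]⟩
    obtain ⟨i, hi⟩ := (Core.isPGroup_pCore 2 R).exists_card_eq
    obtain ⟨j, hj⟩ := ((Core.isPGroup_pCore 2 R).to_le
      (inf_le_left (b := centralizer {c}))).exists_card_eq
    have s2 : i < 10 := by
      by_contra! s2
      exact absurd ((pow_dvd_pow 2 s2).trans (hi ▸ (card_subgroup_dvd_card _).trans hRd))
        (by norm_num)
    have s3 : 2 ^ j ≤ 2 ^ i := by rw [← hi, ← hj]; exact card_le_of_le inf_le_left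
    rw [Nat.pow_le_pow_iff_right (by norm_num)] at s3
    rw [hi, hj] at s1
    have s4 : i = j := by
      interval_cases i <;> interval_cases j <;> first | rfl | exact absurd s1 (by decide)
    have s5 := eq_of_le_of_card_ge (inf_le_left (a := Cfsg.pCore 2 R) (b := centralizer {c}))
      (by rw [hi, hj, s4])
    have s6 := Core.centralizer_pCore_le_of_isSolvable Nat.prime_two hO (x := c)
      fun x hx => ((s5.ge hx).2 c rfl).symm
    have s7 := orderOf_dvd_natCard _ s6
    rw [hc, hi] at s7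
    exact absurd ((Nat.prime_dvd_prime_iff_eq this.out Nat.prime_two).1
      (this.out.dvd_of_dvd_pow s7)) (by decide)
  have h6 : Nat.card R ∣ 2 ^ 9 := by
    refine Nat.Coprime.dvd_of_dvd_mul_right (m := 2 ^ 9) (n := 3 ^ 6 * 5 * 13) ?_ hRd
    exact Nat.Coprime.mul_right (Nat.Coprime.mul_right (Nat.Coprime.pow_right _
      ((Nat.prime_three.coprime_iff_not_dvd.2 h.cop).symm))
      (Nat.prime_five.coprime_iff_not_dvd.2 h5).symm)
      ((by norm_num : Nat.Prime 13).coprime_iff_not_dvd.2 h13).symm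
  obtain ⟨k, -, hk⟩ := (Nat.dvd_prime_pow Nat.prime_two).1 h6
  exact IsPGroup.of_card hk

theorem concl [Group.IsSolvable G] [hR : R.Normal] : Concl R := by
  have hbb : b * b * b = 1 := by rw [← h.b3, pow_three']
  by_cases H : ∀ N : Subgroup G, N.Normal → N ≤ R → (∀ x ∈ N, ∀ y ∈ N, x * y = y * x) →
      ∀ n ∈ N, b * n * b⁻¹ = n
  · exfalso
    have := (h.isPGroup H).isNilpotent
    have h1 : ⁅R, R⁆ ≤ centralizer (R : Set G) := by
      by_contra h1
      obtain ⟨x, x1, x2, x3⟩ := PGroup.exists_central_mod_of_not_le (M := ⁅R, R⁆.subgroupOf R)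
        (N := center R) fun hle => h1 fun y hy r hr => congrArg Subtype.val
          (mem_center_iff.1 (hle (x := ⟨y, commutator_le_left R R hy⟩) hy) ⟨r, hr⟩)
      let M := ⁅R, R⁆ ⊓ Core.commutatorStabilizer R (centralizer (R : Set G))
      have hM : M.Normal := ⟨fun y hy g => ⟨Normal.conj_mem inferInstance _ hy.1 g,
        le_normalizer_of_normal (mem_top _), fun r hr => by
          have := Normal.conj_mem (H := centralizer (R : Set G)) inferInstance _
            (hy.2.2 _ (hR.conj_mem r hr g⁻¹)) g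
          rwa [conjugate_commutatorElement, show g * (g⁻¹ * r * g⁻¹⁻¹) * g⁻¹ = r by group] at this⟩⟩
      have h2 : ⁅⁅M, R⁆, R⁆ = ⊥ := commutator_eq_bot_iff_le_centralizer.2
        (commutator_le.2 fun y hy r hr => hy.2.2 r hr)
      have h3 : ⁅⁅R, R⁆, M⁆ = ⊥ := commutator_commutator_eq_bot_of_rotate
        (by rwa [commutator_comm R M]) h2
      have h4 := h.central (H M hM (inf_le_left.trans (commutator_le_left R R)) fun y hy z hz =>
        (commutator_eq_bot_iff_le_centralizer.1 h3 hy.1 z hz).symm) (n := x)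
        ⟨x1, le_normalizer_of_normal (mem_top _), fun r hr s hs =>
          congrArg Subtype.val (mem_center_iff.1 (x3 ⟨r, hr⟩) ⟨s, hs⟩)⟩
      exact x2 (mem_center_iff.2 fun g => Subtype.ext (h4 g).symm)
    have h2 : ∀ i : ℕ, b ^ i * q * (b ^ i)⁻¹ ∈ closure {q, b * q * b⁻¹} := by
      have m1 : q ∈ closure {q, b * q * b⁻¹} := subset_closure (by simp)
      have m2 : b * q * b⁻¹ ∈ closure {q, b * q * b⁻¹} := subset_closure (by simp)
      intro i
      rw [pow_eq_pow_mod i h.b3]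
      have : i % 3 < 3 := Nat.mod_lt _ (by norm_num)
      interval_cases i % 3
      · simpa using m1
      · simpa using m2
      · have := mul_mem m1 m2
        rw [h.tri.mul_eq] at this
        simpa [pow_two, mul_assoc] using this
    have h3 : ∀ x ∈ closure {q, b * q * b⁻¹}, ∀ y ∈ closure {q, b * q * b⁻¹}, x * y = y * x := by
      have := isMulCommutative_closure (k := {q, b * q * b⁻¹}) (by
        rintro _ (rfl | rfl) _ (rfl | rfl)
        exacts [rfl, h.tri.comm, h.tri.comm.symm, rfl])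
      exact fun x hx y hy => congrArg Subtype.val (this.is_comm.comm ⟨x, hx⟩ ⟨y, hy⟩)
    have h4 : ∀ x ∈ Group.conjugatesOfSet {q}, x ∈ R ∧ ∃ z ∈ centralizer (R : Set G),
        ∃ y ∈ closure {q, b * q * b⁻¹}, y ∈ R ∧ x = z * y := by
      intro x hx
      obtain ⟨_, rfl, hc⟩ := Group.mem_conjugatesOfSet_iff.1 hx
      obtain ⟨g, rfl⟩ := isConj_iff.1 hc
      obtain ⟨r, hr, i, rfl⟩ := h.dec g
      have := hR.conj_mem _ h.mem (b ^ i)
      exact ⟨hR.conj_mem _ h.mem _, _, h1 (commutator_mem_commutator hr this), _, h2 i, this, by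
        rw [commutatorElement_def]; group⟩
    have h5 := isMulCommutative_closure (k := Group.conjugatesOfSet {q}) fun x hx y hy => by
      obtain ⟨x1, z, hz, u, u1, u2, rfl⟩ := h4 x hx
      obtain ⟨y1, z', hz', u', u1', u2', e⟩ := h4 y hy
      have c1 : Commute z y := (hz y y1).symm
      have c2 : Commute u z' := hz' u u2
      have c3 : Commute u u' := h3 u u1 u' u1'
      exact (c1.mul_left (e ▸ c2.mul_right c3)).eq
    exact h.tri.not_comm (H (normalClosure {q}) inferInstance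
      (normalClosure_le_normal (by simpa using h.mem))
      (fun x hx y hy => congrArg Subtype.val (h5.is_comm.comm ⟨x, hx⟩ ⟨y, hy⟩)) q
      (subset_normalClosure rfl))
  push Not at H
  obtain ⟨N, hN, hNR, hc, x, hx, hx'⟩ := H
  have y1 : x⁻¹ * (b * x * b⁻¹) ∈ N := mul_mem (inv_mem hx) (hN.conj_mem _ hx b)
  have y2 : x⁻¹ * (b * x * b⁻¹) ≠ 1 := fun e => hx' (inv_mul_eq_one.1 e).symm
  have y3 : x⁻¹ * (b * x * b⁻¹) * (b * (x⁻¹ * (b * x * b⁻¹)) * b⁻¹) *
      (b * (b * (x⁻¹ * (b * x * b⁻¹)) * b⁻¹) * b⁻¹) = 1 := by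
    calc _ = x⁻¹ * (b * b * b) * x * (b * b * b)⁻¹ := by group
      _ = 1 := by rw [hbb]; group
  generalize x⁻¹ * (b * x * b⁻¹) = y at y1 y2 y3
  rcases Nat.even_or_odd (orderOf y) with ⟨k, hk⟩ | ho
  · have k0 : 0 < k := by have := orderOf_pos y; omega
    have i1 := hN.conj_mem _ y1 b
    refine h.even_case hc (pow_mem y1 k) ⟨pow_ne_one_of_lt_orderOf k0.ne' (by omega),
      by rw [← pow_add, ← hk, pow_orderOf_eq_one], ?_⟩
    rw [← conj_pow, ← conj_pow, ← Commute.mul_pow (hc _ y1 _ i1),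
      ← Commute.mul_pow (hc _ (mul_mem y1 i1) _ (hN.conj_mem _ i1 b)), y3, one_pow]
  · exact (h.odd_case hNR hc y1 y2 ho y3).elim

end Cub

end CfsgLib.Cub3
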