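import Cfsg.Agent.Lib.Cub3.Lin

/-!
Subgroups of order prime to three acting on a module over the field with three elements.
-/

set_option autoImplicit false

namespace CfsgLib.Cub3

open Module

variable {G : Type*} [Group G] [Finite G] {W : Type*} [AddCommGroup W] [Module (ZMod 3) W]
  (ρ : Representation (ZMod 3) G W)

/-- the elements of a subgroup -/
noncomputable def els (A : Subgroup G) : Finset G := (Set.toFinite (A : Set G)).toFinset

theorem mem_els {A : Subgroup G} {a : G} : a ∈ els A ↔ a ∈ A := by simp [els]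

theorem card_els (A : Subgroup G) : (els A).card = Nat.card A := by
  rw [els, ← Set.ncard_eq_toFinset_card, ← Nat.card_coe_set_eq]; rfl

/-- the sum of the elements of a subgroup -/
noncomputable def sm (A : Subgroup G) : End (ZMod 3) W := ∑ a ∈ els A, ρ a

variable {ρ} {A : Subgroup G}

theorem sm_mul {a : G} (ha : a ∈ A) (v : W) : sm ρ A (ρ a v) = sm ρ A v := by
  rw [← End.mul_apply, sm, Finset.sum_mul]
  congr 1
  exact Finset.sum_equiv (Equiv.mulRight a) (fun x => by simp [mem_els, A.mul_mem_cancel_right ha])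
    fun x _ => by simp

theorem mul_sm {a : G} (ha : a ∈ A) (v : W) : ρ a (sm ρ A v) = sm ρ A v := by
  rw [← End.mul_apply, sm, Finset.mul_sum]
  congr 1
  exact Finset.sum_equiv (Equiv.mulLeft a) (fun x => by simp [mem_els, A.mul_mem_cancel_left ha])
    fun x _ => by simp

theorem sm_conj {g : G} (hg : g ∈ Subgroup.normalizer (A : Set G)) (v : W) :
    ρ g (sm ρ A v) = sm ρ A (ρ g v) := by
  rw [← End.mul_apply, ← End.mul_apply, sm, Finset.mul_sum, Finset.sum_mul]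
  congr 1
  exact Finset.sum_equiv (MulAut.conj g).toEquiv
    (fun x => by simpa [mem_els] using Subgroup.mem_normalizer_iff.1 hg x)
    fun x _ => by simp [← map_mul]

theorem sm_sub_mem {U : Submodule (ZMod 3) W} {y : W} (h : ∀ a ∈ A, ρ a y - y ∈ U) :
    sm ρ A y - (Nat.card A : ZMod 3) • y ∈ U := by
  rw [sm, LinearMap.sum_apply, ← card_els, Nat.cast_smul_eq_nsmul, ← Finset.sum_const,
    ← Finset.sum_sub_distrib]
  exact U.sum_mem fun a ha => h a (mem_els.1 ha)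

theorem sm_fix {y : W} (h : ∀ a ∈ A, ρ a y = y) : sm ρ A y = (Nat.card A : ZMod 3) • y :=
  sub_eq_zero.1 ((Submodule.mem_bot _).1 (sm_sub_mem fun a ha => by simp [h a ha]))

theorem cast_ne_zero {n : ℕ} (h : ¬ 3 ∣ n) : (n : ZMod 3) ≠ 0 := fun e =>
  h ((ZMod.natCast_eq_zero_iff n 3).1 e)

theorem eq_zero_of_fix (cop : ¬ 3 ∣ Nat.card A) {y : W} (h : ∀ a ∈ A, ρ a y = y)
    (h0 : sm ρ A y = 0) : y = 0 := by
  rw [sm_fix h] at h0
  exact (smul_eq_zero.1 h0).resolve_left (cast_ne_zero cop)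

theorem exists_split (cop : ¬ 3 ∣ Nat.card A) (v : W) :
    ∃ x y, v = x + y ∧ (∀ a ∈ A, ρ a x = x) ∧ sm ρ A y = 0 := by
  have h : ∀ a ∈ A, ρ a ((Nat.card A : ZMod 3)⁻¹ • sm ρ A v) = (Nat.card A : ZMod 3)⁻¹ • sm ρ A v :=
    fun a ha => by rw [map_smul, mul_sm ha]
  refine ⟨_, v - (Nat.card A : ZMod 3)⁻¹ • sm ρ A v, (add_sub_cancel _ _).symm, h, ?_⟩
  rw [map_sub, sm_fix h, smul_smul, mul_inv_cancel₀ (cast_ne_zero cop), one_smul, sub_self]

theorem mem_of_sup (cop : ¬ 3 ∣ Nat.card A) (odd : ∀ a ∈ A, Odd (orderOf a))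
    {U Y : Submodule (ZMod 3) W} (hU : ∀ a ∈ A, ∀ v ∈ U, ρ a v ∈ U) {y : W}
    (hY : U ⊔ Submodule.span (ZMod 3) {y} = Y) (hy : ∀ a ∈ A, ρ a y ∈ Y) (h0 : sm ρ A y ∈ U) :
    y ∈ U := by
  have h1 := sm_sub_mem (U := U) (y := y) fun a ha => by
    obtain ⟨c, hc⟩ := exists_sub_mem hY (hy a ha)
    exact odd_step (odd a ha) (by rw [← map_pow, pow_orderOf_eq_one, map_one]) (hU a ha) hc
  have h2 := U.sub_mem h0 h1
  rwa [sub_sub_cancel, U.smul_mem_iff (cast_ne_zero cop)] at h2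

theorem irr3 [Module.Finite (ZMod 3) W] (cop : ¬ 3 ∣ Nat.card A) (odd : ∀ a ∈ A, Odd (orderOf a))
    {U Y : Submodule (ZMod 3) W} (h3 : finrank (ZMod 3) Y ≤ 3) (h0 : ∀ v ∈ Y, sm ρ A v = 0)
    (hY : ∀ a ∈ A, ∀ v ∈ Y, ρ a v ∈ Y) (hU : ∀ a ∈ A, ∀ v ∈ U, ρ a v ∈ U) (hUY : U ≤ Y) :
    U = ⊥ ∨ U = Y := by
  by_contra! h
  obtain ⟨x, hx, hx0⟩ := (Submodule.ne_bot_iff _).1 h.1
  obtain ⟨y, hy, hy0⟩ := SetLike.exists_of_lt (lt_of_le_of_ne hUY h.2)
  rcases le_or_gt (finrank (ZMod 3) U) 1 with h1 | h1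
  · exact hx0 (mem_of_sup (U := ⊥) cop odd (fun a _ v hv => by simp [(Submodule.mem_bot _).1 hv])
      (sup_eq_of_finrank bot_le hx hx0 (by simpa using h1)) (fun a ha => hU a ha x hx)
      (h0 x (hUY hx)))
  · exact hy0 (mem_of_sup cop odd hU (sup_eq_of_finrank hUY hy hy0 (by omega))
      (fun a ha => hY a ha y hy) (by rw [h0 y hy]; exact U.zero_mem))

theorem frob_key {b : G} (b3 : b ^ 3 = 1)
    (hb : b ∈ Subgroup.normalizer (A : Set G)) (fpf : ∀ a ∈ A, b * a * b⁻¹ = a → a = 1) {v : W}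
    (h0 : sm ρ A v = 0) (hv : ρ b v = v) : ∃ w, sm ρ A w = 0 ∧
      w + ρ b w + ρ b (ρ b w) = (Nat.card A : ZMod 3) • v := by
  classical
  let N : End (ZMod 3) W := 1 + ρ b + ρ b * ρ b
  have hN : ∀ w, N w = w + ρ b w + ρ b (ρ b w) := fun w => rfl
  have hbb : b * b * b = 1 := by rw [← b3, pow_three']
  have hmem : ∀ a ∈ A, b * a * b⁻¹ ∈ A := fun a ha => (Subgroup.mem_normalizer_iff.1 hb a).1 ha
  have happ : ∀ g h w, ρ g (ρ h w) = ρ (g * h) w := fun g h w => by rw [map_mul, End.mul_apply]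
  have hbi : ρ b⁻¹ v = v := by
    nth_rw 1 [← hv]
    rw [happ, inv_mul_cancel, map_one, End.one_apply]
  let f : G → W := fun a => if a ∈ A then ρ a⁻¹ (N (ρ a v)) else 0
  have hf : ∀ a, f (b * a * b⁻¹) = ρ b (f a) := fun a => by
    by_cases ha : a ∈ A
    · simp only [f, if_pos ha, if_pos (hmem a ha), hN, map_add, happ]
      conv_rhs => rw [← hbi]
      simp only [happ]
      refine congrArg₂ _ (congrArg₂ _ ?_ ?_) ?_ <;> congr 2 <;> group
    · rw [show f a = 0 from if_neg ha, map_zero]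
      exact if_neg fun h => ha ((Subgroup.mem_normalizer_iff.1 hb a).2 h)
  have hker : ∀ w, sm ρ A w = 0 → sm ρ A (ρ b w) = 0 := fun w hw => by
    rw [← sm_conj hb, hw, map_zero]
  have hf0 : ∀ a, sm ρ A (f a) = 0 := fun a => by
    by_cases ha : a ∈ A
    · have h1 : sm ρ A (ρ a v) = 0 := by rw [sm_mul ha, h0]
      rw [show f a = _ from if_pos ha, sm_mul (inv_mem ha), hN, map_add, map_add, h1, hker _ h1,
        hker _ (hker _ h1), add_zero, add_zero]
    · rw [show f a = 0 from if_neg ha, map_zero]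
  have h1 := sum_orbits (fun a => b * a * b⁻¹) (fun a => by
      calc _ = b * b * b * a * (b * b * b)⁻¹ := by group
        _ = a := by rw [hbb]; group) f ((LinearMap.ker (sm ρ A)).map N)
    (fun a => ⟨f a, hf0 a, by simp only [hf, hN]⟩) ((els A).erase 1)
    (fun a ha => by
      rw [Finset.mem_erase, mem_els] at ha ⊢
      exact ⟨by simpa using ha.1, hmem a ha.2⟩)
    (fun a ha e => by
      rw [Finset.mem_erase, mem_els] at ha
      exact ha.1 (fpf a ha.2 e))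
  rw [Finset.sum_erase _ (by
    simp only [f, if_pos A.one_mem, inv_one, map_one, End.one_apply, hN, hv]
    linear_combination (norm := module) three_smul v)] at h1
  obtain ⟨w, hw, hw'⟩ := h1
  refine ⟨w, hw, ?_⟩
  have h2 : ∀ c : G, (∀ a ∈ A, c * a * c⁻¹ ∈ A) → (∀ a ∈ A, c * a * c⁻¹ = a → a = 1) → ρ c v = v →
      ∑ a ∈ els A, ρ (a⁻¹ * (c * a)) v = 0 := by
    intro c c1 c2 c3
    rw [← h0, sm, LinearMap.sum_apply]
    have hinj : Set.InjOn (fun a => a⁻¹ * (c * a * c⁻¹)) (els A) := fun x hx y hy e => by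
      have hx := mem_els.1 hx
      have hy := mem_els.1 hy
      have := c2 (y * x⁻¹) (mul_mem hy (inv_mem hx)) (by
        have e' : x⁻¹ * (c * x * c⁻¹) = y⁻¹ * (c * y * c⁻¹) := e
        calc _ = y * (y⁻¹ * (c * y * c⁻¹)) * (x⁻¹ * (c * x * c⁻¹))⁻¹ * x⁻¹ := by group
          _ = _ := by rw [e']; group)
      exact (mul_inv_eq_one.1 this).symm
    have hmap : ∀ a ∈ els A, a⁻¹ * (c * a * c⁻¹) ∈ els A := fun a ha =>
      mem_els.2 (mul_mem (inv_mem (mem_els.1 ha)) (c1 a (mem_els.1 ha)))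
    refine Finset.sum_nbij _ hmap hinj (Finset.surjOn_of_injOn_of_card_le _ hmap hinj le_rfl)
      fun a _ => ?_
    nth_rw 2 [← c3]
    rw [happ]
    congr 2
    group
  have h3 := h2 b hmem fpf hv
  have h4 := h2 (b * b) (fun a ha => by simpa [mul_assoc] using hmem _ (hmem a ha))
    (fun a ha e => fpf a ha (by
      calc b * a * b⁻¹ = b * (b * b * a * (b * b)⁻¹) * b⁻¹ := by rw [e]
        _ = b * b * b * a * (b * b * b)⁻¹ := by group
        _ = a := by rw [hbb]; group)) (by rw [← happ, hv, hv])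
  rw [← hN, hw', Finset.sum_congr rfl (g := fun a => v + ρ (a⁻¹ * (b * a)) v +
    ρ (a⁻¹ * (b * b * a)) v) fun a ha => by
      simp only [f, if_pos (mem_els.1 ha), hN, map_add, happ, inv_mul_cancel, map_one,
        End.one_apply, mul_assoc]]
  rw [Finset.sum_add_distrib, Finset.sum_add_distrib, h3, h4, Finset.sum_const, card_els,
    Nat.cast_smul_eq_nsmul, add_zero, add_zero]

theorem frob [Module.Finite (ZMod 3) W] (cop : ¬ 3 ∣ Nat.card A) {b : G} (b3 : b ^ 3 = 1)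
    (hb : b ∈ Subgroup.normalizer (A : Set G)) (fpf : ∀ a ∈ A, b * a * b⁻¹ = a → a = 1)
    (rk : finrank (ZMod 3) (LinearMap.range (ρ b - 1)) ≤ 2) {u : W}
    (hu : ∀ v, ∃ c : ZMod 3, v + ρ b v + ρ b (ρ b v) = c • u) {v0 : W} (h0 : sm ρ A v0 = 0)
    (h1 : v0 ≠ 0) : (∀ v, (∀ a ∈ A, ρ a v = v) → ρ b v = v) ∧
      finrank (ZMod 3) (LinearMap.ker (sm ρ A)) ≤ 3 := by
  have hbb : ρ b * ρ b * ρ b = 1 := by rw [← map_mul, ← map_mul, ← pow_three', b3, map_one]
  have hsq := sq_sub_one (X := ρ b)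
  have hcube := cube_sub_one hbb
  have hker : ∀ w, sm ρ A w = 0 → sm ρ A ((ρ b - 1) w) = 0 := fun w hw => by
    rw [LinearMap.sub_apply, map_sub, ← sm_conj hb, End.one_apply, hw, map_zero, sub_zero]
  have hkey : ∀ v, sm ρ A v = 0 → (ρ b - 1) v = 0 → ∃ w, sm ρ A w = 0 ∧
      (ρ b - 1) ((ρ b - 1) w) = (Nat.card A : ZMod 3) • v := fun v h h' => by
    simpa only [hsq] using frob_key b3 hb fpf h (sub_eq_zero.1 h')
  have hu' : ∀ v, ∃ c : ZMod 3, (ρ b - 1) ((ρ b - 1) v) = c • u := fun v => by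
    simpa only [hsq] using hu v
  have hfix : ∀ v, (∀ a ∈ A, ρ a v = v) → ∀ a ∈ A, ρ a ((ρ b - 1) v) = (ρ b - 1) v := by
    intro v hv a ha
    rw [LinearMap.sub_apply, map_sub, End.one_apply, hv a ha, ← End.mul_apply, ← map_mul,
      show a * b = b * (b⁻¹ * a * b⁻¹⁻¹) by group, map_mul, End.mul_apply,
      hv _ ((Subgroup.mem_normalizer_iff.1 (inv_mem hb) a).1 ha)]
  clear hsq hu
  suffices H : (∀ v, (∀ a ∈ A, ρ a v = v) → (ρ b - 1) v = 0) ∧ _ from
    ⟨fun v hv => sub_eq_zero.1 (H.1 v hv), H.2⟩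
  generalize ρ b - 1 = D at *
  obtain ⟨w, hw, hw'⟩ : ∃ w, sm ρ A w = 0 ∧ D (D w) ≠ 0 := by
    obtain ⟨v, h2, h3, h4⟩ : ∃ v, sm ρ A v = 0 ∧ D v = 0 ∧ v ≠ 0 := by
      by_cases e1 : D v0 = 0
      · exact ⟨v0, h0, e1, h1⟩
      by_cases e2 : D (D v0) = 0
      · exact ⟨_, hker _ h0, e2, e1⟩
      · exact ⟨_, hker _ (hker _ h0), hcube _, e2⟩
    obtain ⟨w, hw, hw'⟩ := hkey v h2 h3
    exact ⟨w, hw, hw' ▸ smul_ne_zero (cast_ne_zero cop) h4⟩
  have hdep : ∀ v, ∃ c1 c2 c3 : ZMod 3, c3 ≠ 0 ∧ D (c1 • w + c2 • D w + c3 • v) = 0 := by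
    intro v
    obtain ⟨c1, c2, c3, hc, h⟩ := exists_dep rk w (D w) v
    refine ⟨c1, c2, c3, fun e => ?_, h⟩
    have h' := congrArg D h
    simp only [e, map_add, map_smul, hcube, smul_zero, zero_smul, add_zero, map_zero] at h h'
    have e1 := (smul_eq_zero.1 h').resolve_right hw'
    rw [e1, zero_smul, zero_add] at h
    simp [e, e1, (smul_eq_zero.1 h).resolve_right hw'] at hc
  refine ⟨fun v hv => eq_zero_of_fix cop (hfix v hv) ?_, ?_⟩
  · obtain ⟨c1, c2, c3, hc, h⟩ := hdep v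
    have h' := congrArg (sm ρ A) h
    simp only [map_add, map_smul, hker _ hw, hker _ (hker _ hw), smul_zero, zero_add,
      map_zero] at h'
    exact (smul_eq_zero.1 h').resolve_left hc
  · classical
    have h5 : finrank (ZMod 3) (Submodule.span (ZMod 3) (({w, D w, D (D w)} : Finset W) : Set W)) ≤
        3 := (finrank_span_finset_le_card (R := ZMod 3) ({w, D w, D (D w)} : Finset W)).trans
      Finset.card_le_three
    refine (Submodule.finrank_mono fun v hv => ?_).trans h5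
    obtain ⟨c1, c2, c3, hc, h⟩ := hdep v
    obtain ⟨w', -, h'⟩ := hkey _ (by
      simp only [map_add, map_smul, hw, hker _ hw, LinearMap.mem_ker.1 hv, smul_zero, add_zero]) h
    obtain ⟨d, hd⟩ := hu' w
    obtain ⟨d', hd'⟩ := hu' w'
    have d0 : d ≠ 0 := fun e => hw' (by rw [hd, e, zero_smul])
    set U := Submodule.span (ZMod 3) (({w, D w, D (D w)} : Finset W) : Set W)
    have m1 : w ∈ U := Submodule.subset_span (by simp)
    have m2 : D w ∈ U := Submodule.subset_span (by simp)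
    have m3 : D (D w) ∈ U := Submodule.subset_span (by simp)
    rw [hd, U.smul_mem_iff d0] at m3
    have m4 := U.smul_mem d' m3
    rw [← hd', h', U.smul_mem_iff (cast_ne_zero cop),
      U.add_mem_iff_right (U.add_mem (U.smul_mem _ m1) (U.smul_mem _ m2)), U.smul_mem_iff hc] at m4
    exact m4

end CfsgLib.Cub3
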