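import Cfsg.Agent.Lib.Cub3.Main
import Cfsg.Agent.Lib.Coprime.Action
import Cfsg.Agent.Lib.Core.Fitting

/-!
Reduction to the irreducible constituent.
-/

set_option autoImplicit false

namespace CfsgLib.Cub3

open Module Subgroup
open scoped commutatorElement

theorem es_congr {C D : Type*} [Group C] [Group D] (e : C ≃* D) (h : Cfsg.IsExtraspecial 2 C) :
    Cfsg.IsExtraspecial 2 D := by
  obtain ⟨⟨h1, h2, h3⟩, h4⟩ := h
  have c : (center C).map (e : C →* D) = center D := by
    ext y
    obtain ⟨x, rfl⟩ := e.surjective y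
    refine (mem_map_iff_mem e.injective).trans ?_
    simp only [mem_center_iff, e.surjective.forall, ← map_mul, e.injective.eq_iff]
  refine ⟨⟨h1.of_equiv e, ?_, ?_⟩, ?_⟩
  · rw [← c, ← h2]
    exact le_antisymm (fun y hy => ⟨e.symm y, frattini_le_comap_frattini_of_surjective
      (φ := (e.symm : D →* C)) e.symm.surjective hy, e.apply_symm_apply y⟩) (map_le_iff_le_comap.2
        (frattini_le_comap_frattini_of_surjective (φ := (e : C →* D)) e.surjective))
  · rw [← c, ← h3, _root_.commutator_def, _root_.commutator_def, map_commutator,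
      map_top_of_surjective _ e.surjective]
  · rw [← c, card_map_of_injective e.injective, h4]

variable {G : Type*} [Group G] [Finite G] {W : Type*} [AddCommGroup W] [Module (ZMod 3) W]

theorem top [Group.IsSolvable G] [Module.Finite (ZMod 3) W] {ρ : Representation (ZMod 3) G W}
    {R : Subgroup G} [hR : R.Normal] {b q : G} (inj : Function.Injective ρ) (cop : ¬ 3 ∣ Nat.card R)
    (b3 : b ^ 3 = 1) (gen : normalClosure {b} = ⊤) (dec : ∀ g, ∃ r ∈ R, ∃ i : ℕ, g = r * b ^ i)
    (rk : finrank (ZMod 3) (LinearMap.range (ρ b - 1)) ≤ 2) (tri : Tri b q) (mem : q ∈ R) :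
    Concl R ∧ (∀ g, ∀ v ∈ LinearMap.ker (sm ρ R), ρ g v ∈ LinearMap.ker (sm ρ R)) ∧
      (∀ g, (∀ v ∈ LinearMap.ker (sm ρ R), ρ g v = v) → g = 1) ∧
      ∀ N ≤ LinearMap.ker (sm ρ R), (∀ g, ∀ v ∈ N, ρ g v ∈ N) →
        N = ⊥ ∨ N = LinearMap.ker (sm ρ R) := by
  set F := LinearMap.ker (sm ρ R) with hF
  have hbb : ρ b * ρ b * ρ b = 1 := by rw [← map_mul, ← map_mul, ← pow_three', b3, map_one]
  have h1 : ∀ g, ∀ v ∈ F, ρ g v ∈ F := fun g v hv => by
    rw [hF, LinearMap.mem_ker] at hv ⊢
    rw [← sm_conj (le_normalizer_of_normal (mem_top g)), hv, map_zero]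
  let ρ₀ := ρ.subrepresentation F h1
  have k0 : ∀ g, g ∈ ρ₀.ker ↔ ∀ v ∈ F, ρ g v = v := fun g =>
    ⟨fun hg v hv => congrArg Subtype.val (LinearMap.congr_fun hg ⟨v, hv⟩),
      fun hg => LinearMap.ext fun v => Subtype.ext (hg v v.2)⟩
  have k1 : ∀ r ∈ R, r ∈ ρ₀.ker → r = 1 := fun r hr hk =>
    inj ((LinearMap.ext fun v => by
      obtain ⟨x, y, rfl, hx, hy⟩ := exists_split (ρ := ρ) cop v
      rw [map_add, hx r hr, (k0 r).1 hk y hy, End.one_apply]).trans (map_one ρ).symm)
  have k2 : ∀ g ∈ ρ₀.ker, g = 1 := fun g hg => by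
    obtain ⟨r, hr, i, rfl⟩ := dec g
    have c1 : Commute (r * b ^ i) r := commutatorElement_eq_one_iff_commute.1 (k1 _
      (commutator_le_right ⊤ R (commutator_mem_commutator (mem_top _) hr))
      (commutator_le_left ρ₀.ker ⊤ (commutator_mem_commutator hg (mem_top _))))
    have c2 : Commute r (b ^ i) := by
      have := (Commute.refl r).inv_left.mul_left c1
      rw [inv_mul_cancel_left] at this
      exact this.symm
    have c3 := pow_mem hg 3
    rw [c2.mul_pow, ← pow_mul, mul_comm, pow_mul, b3, one_pow, mul_one] at c3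
    have c4 : r = 1 := orderOf_eq_one_iff.1 (((Nat.dvd_prime Nat.prime_three).1
      (orderOf_dvd_of_pow_eq_one (k1 _ (pow_mem hr 3) c3))).resolve_right fun e =>
        cop (e ▸ orderOf_dvd_natCard _ hr))
    rw [c4, one_mul] at hg ⊢
    by_contra c5
    have c6 : b ∈ ρ₀.ker := by
      rw [pow_eq_pow_mod i b3] at hg c5
      have : i % 3 < 3 := Nat.mod_lt _ (by norm_num)
      interval_cases i % 3
      · simp at c5
      · simpa using hg
      · have := pow_mem hg 2
        rwa [← pow_mul, show 2 * 2 = 3 + 1 from rfl, pow_succ, b3, one_mul] at this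
    exact tri.not_comm (mul_inv_eq_one.1 (k1 ⁅b, q⁆
      (commutator_le_right ⊤ R (commutator_mem_commutator (mem_top _) mem))
      (commutator_le_left ρ₀.ker ⊤ (commutator_mem_commutator c6 (mem_top _)))))
  have k3 : ∀ N ≤ F, (∀ g, ∀ v ∈ N, ρ g v ∈ N) → N = ⊥ ∨ N = F := fun N hNF hN => by
    obtain ⟨e, he⟩ := tri.fg inj b3 rk
    have x3 : ρ b (ρ b (ρ b e)) = e := LinearMap.congr_fun hbb e
    by_cases hen : e ∈ N
    · right
      let K : Subgroup G :=
        { carrier := {g | ∀ v, ρ g v - v ∈ N}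
          one_mem' := fun v => by simp
          mul_mem' := fun {g g'} hg hg' v => by
            have := N.add_mem (hg (ρ g' v)) (hg' v)
            rwa [sub_add_sub_cancel, rep_apply] at this
          inv_mem' := fun {g} hg v => by
            have := N.neg_mem (hg (ρ g⁻¹ v))
            rwa [neg_sub, rep_apply, mul_inv_cancel, map_one] at this }
      have m1 := hN b e hen
      have m2 := hN b _ m1
      have hb : b ∈ K := fun v => by
        obtain ⟨v0, a1, a2, c1, c2, c3, rfl⟩ := he.dec v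
        have := N.add_mem (N.add_mem (N.smul_mem c1 (N.sub_mem m1 hen))
          (N.smul_mem c2 (N.sub_mem m2 m1))) (N.smul_mem c3 (N.sub_mem hen m2))
        convert this using 1
        simp only [map_add, map_smul, he.w0 v0 a1 a2, x3]
        module
      have hK : K = ⊤ := eq_top_of_conj gen fun g v => by
        have := hN g _ (hb (ρ g⁻¹ v))
        rwa [map_sub, rep_apply, rep_apply, rep_apply, mul_inv_cancel, map_one] at this
      refine le_antisymm hNF fun v hv => ?_
      have := sm_sub_mem (ρ := ρ) (A := R) (U := N) (y := v) fun a _ => hK.ge (mem_top a) v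
      rw [LinearMap.mem_ker.1 hv, zero_sub, neg_mem_iff] at this
      exact (N.smul_mem_iff (cast_ne_zero cop)).1 this
    · left
      have hb : ∀ v ∈ N, ρ b v = v := fun v hv => by
        obtain ⟨v0, a1, a2, c1, c2, c3, rfl⟩ := he.dec v
        have p1 := hN q _ hv
        have p2 := hN (b * q * b⁻¹) _ hv
        have p3 := hN q _ p2
        simp only [map_add, map_smul, map_neg, a1, a2, he.e1, he.e2, he.f1, he.f2, he.g1,
          he.g2] at p1 p2 p3
        have z1 : c1 = 0 := by
          by_contra z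
          refine hen ((N.smul_mem_iff z).1 ?_)
          convert N.sub_mem (N.add_mem hv p1) (N.add_mem p2 p3) using 1
          linear_combination (norm := module) (-1 : ZMod 3) • three_smul (c1 • e)
        have z2 : c2 = 0 := by
          by_contra z
          have : ρ b e ∈ N := by
            refine (N.smul_mem_iff z).1 ?_
            convert N.sub_mem (N.add_mem hv p2) (N.add_mem p1 p3) using 1
            linear_combination (norm := module) (-1 : ZMod 3) • three_smul (c2 • ρ b e)
          exact hen (x3 ▸ hN b _ (hN b _ this))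
        have z3 : c3 = 0 := by
          by_contra z
          have : ρ b (ρ b e) ∈ N := by
            refine (N.smul_mem_iff z).1 ?_
            convert N.sub_mem (N.add_mem hv p3) (N.add_mem p1 p2) using 1
            linear_combination (norm := module) (-1 : ZMod 3) • three_smul (c3 • ρ b (ρ b e))
          exact hen (x3 ▸ hN b _ this)
        simp only [z1, z2, z3, zero_smul, add_zero, he.w0 v0 a1 a2]
      let K : Subgroup G :=
        { carrier := {g | ∀ v ∈ N, ρ g v = v}
          one_mem' := fun v _ => by simp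
          mul_mem' := fun {g g'} hg hg' v hv => by rw [← rep_apply, hg' v hv, hg v hv]
          inv_mem' := fun {g} hg v hv => by
            nth_rw 1 [← hg v hv]
            rw [rep_apply, inv_mul_cancel, map_one, End.one_apply] }
      have hK : K = ⊤ := eq_top_of_conj gen fun g v hv => by
        rw [← rep_apply, ← rep_apply, hb _ (hN _ v hv), rep_apply, mul_inv_cancel, map_one,
          End.one_apply]
      exact eq_bot_iff.2 fun v hv =>
        eq_zero_of_fix cop (fun a _ => hK.ge (mem_top a) v hv) (hNF hv)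
  refine ⟨Cub.concl (ρ := ρ₀) ⟨(injective_iff_map_eq_one ρ₀).2 k2, fun U hU => ?_, cop, b3, gen, dec,
    ?_, tri, mem⟩, h1, fun g hg => k2 g ((k0 g).2 hg), k3⟩
  · have i := Submodule.map_injective_of_injective F.subtype_injective
    refine (k3 (U.map F.subtype) (Submodule.map_subtype_le _ _) ?_).imp
      (fun e => i (by rw [e, Submodule.map_bot])) fun e => i (by rw [e, Submodule.map_subtype_top])
    rintro g _ ⟨v, hv, rfl⟩
    exact ⟨_, hU g v hv, rfl⟩
  · rw [← Submodule.finrank_map_subtype_eq]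
    refine (Submodule.finrank_mono ?_).trans rk
    rintro _ ⟨_, ⟨v, rfl⟩, rfl⟩
    exact ⟨v, rfl⟩

theorem exists_tri [Group.IsSolvable G] {b : G} (b3 : b ^ 3 = 1) {Q : Subgroup G}
    (hQ : ∀ x ∈ Q, x ^ 2 = 1) (hbQ : b ∈ normalizer (Q : Set G))
    (hbQ' : b ∉ centralizer (Q : Set G)) (P : Sylow 3 G) (hbP : ∀ x ∈ P, x * b = b * x) :
    ∃ q ∈ ⁅Cfsg.pPrimeCore 3 G, zpowers b⁆, Tri b q := by
  have := Fact.mk Nat.prime_three
  have hbb : b * b * b = 1 := by rw [← b3, pow_three']
  have tel : ∀ x : G, x⁻¹ * (b * x * b⁻¹) * (b * (x⁻¹ * (b * x * b⁻¹)) * b⁻¹) *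
      (b * (b * (x⁻¹ * (b * x * b⁻¹)) * b⁻¹) * b⁻¹) = 1 := fun x => by
    calc _ = x⁻¹ * (b * b * b) * x * (b * b * b)⁻¹ := by group
      _ = 1 := by rw [hbb]; group
  have step : ∀ x ∈ Q, b * x * b⁻¹ ≠ x → x⁻¹ * (b * x * b⁻¹) ∈ Q ∧ Tri b (x⁻¹ * (b * x * b⁻¹)) :=
    fun x hx hx' =>
      have m := mul_mem (inv_mem hx) ((mem_normalizer_iff.1 hbQ x).1 hx)
      ⟨m, fun e => hx' (inv_mul_eq_one.1 e).symm, by rw [← pow_two, hQ _ m], tel x⟩
  obtain ⟨x, hx, hx'⟩ : ∃ x ∈ Q, b * x * b⁻¹ ≠ x := by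
    by_contra! hx
    exact hbQ' fun x hx' => (mul_inv_eq_iff_eq_mul.1 (hx x hx')).symm
  obtain ⟨a1, a2⟩ := step x hx hx'
  refine ⟨_, ?_, (step _ a1 a2.not_comm).2⟩
  have a3 : x⁻¹ * (b * x * b⁻¹) ∈ Cfsg.pPrimeCore 3 G := by
    let f := QuotientGroup.mk' (Cfsg.pPrimeCore 3 G)
    have f1 : f b ∈ Cfsg.pCore 3 (G ⧸ Cfsg.pPrimeCore 3 G) :=
      Core.centralizer_pCore_le_of_isSolvable Nat.prime_three
        (Core.pPrimeCore_quotient_pPrimeCore 3 G) fun y hy => by
          obtain ⟨z, hz, rfl⟩ := Core.pCore_le_sylow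
            (P.mapSurjective (QuotientGroup.mk'_surjective _)) hy
          exact (map_mul f z b).symm.trans ((congrArg f (hbP z hz)).trans (map_mul f b z))
    have f2 : f (x⁻¹ * (b * x * b⁻¹)) ∈ Cfsg.pCore 3 (G ⧸ Cfsg.pPrimeCore 3 G) := by
      have := mul_mem (Normal.conj_mem (H := Cfsg.pCore 3 _) inferInstance _ f1 (f x)⁻¹) (inv_mem f1)
      simpa only [map_mul, map_inv, inv_inv, mul_assoc] using this
    obtain ⟨k, hk⟩ := Core.isPGroup_pCore 3 _ ⟨_, f2⟩
    have f3 : f (x⁻¹ * (b * x * b⁻¹)) ^ 2 = 1 := by rw [← map_pow, hQ _ a1, map_one]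
    exact (QuotientGroup.eq_one_iff _).1 (orderOf_eq_one_iff.1 (Nat.eq_one_of_dvd_coprimes
      (Nat.Coprime.pow_right k (by norm_num : Nat.Coprime 2 3)) (orderOf_dvd_of_pow_eq_one f3)
      (orderOf_dvd_of_pow_eq_one (congrArg Subtype.val hk))))
  have := commutator_mem_commutator (inv_mem a3) (mem_zpowers b)
  simpa only [commutatorElement_def, inv_inv, mul_assoc] using this

end CfsgLib.Cub3
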